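import Cfsg.Prelude.Def_GeometricClasses
import Cfsg.Agent.Eq.Def_GeometricClasses

/-!
Elementary facts used for Aschbacher's subgroup structure theorem: transvections as elements of
GL(ι, F), and the fact that no member of a geometric class contains all of them.
-/

set_option autoImplicit false

namespace CfsgLib.Aschbacher

open Matrix Module
open scoped MatrixGroups

variable {ι : Type} [Fintype ι] [DecidableEq ι] {F : Type*} [Field F]

lemma inv_mulVec_mulVec (g : GL ι F) (v : ι → F) :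
    (g⁻¹ : GL ι F).val *ᵥ (g.val *ᵥ v) = v := by
  rw [mulVec_mulVec, ← Units.val_mul, inv_mul_cancel, Units.val_one, one_mulVec]

lemma mulVec_inv_mulVec (g : GL ι F) (v : ι → F) :
    g.val *ᵥ ((g⁻¹ : GL ι F).val *ᵥ v) = v := by
  rw [mulVec_mulVec, ← Units.val_mul, mul_inv_cancel, Units.val_one, one_mulVec]

lemma mulVec_inj (g : GL ι F) : Function.Injective fun v : ι → F => g.val *ᵥ v :=
  Function.LeftInverse.injective (g := fun v => (g⁻¹ : GL ι F).val *ᵥ v) (inv_mulVec_mulVec g)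

/-- `g` as a linear automorphism of column vectors. -/
def linEquiv (g : GL ι F) : (ι → F) ≃ₗ[F] (ι → F) where
  __ := Matrix.toLin' g.val
  invFun v := (g⁻¹ : GL ι F).val *ᵥ v
  left_inv v := by simp
  right_inv v := by simp

@[simp] lemma linEquiv_apply (g : GL ι F) (v : ι → F) : linEquiv g v = g.val *ᵥ v := rfl

lemma finrank_map_gl (g : GL ι F) (W : Submodule F (ι → F)) :
    finrank F (W.map (toLin' g.val)) = finrank F W :=
  (linEquiv g).finrank_map_eq W

lemma mem_subspaceStabilizer_of_mapsTo {W : Submodule F (ι → F)} {g : GL ι F}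
    (h : ∀ v ∈ W, g.val *ᵥ v ∈ W) : g ∈ Cfsg.Geo.subspaceStabilizer W := by
  have heq : W.map (toLin' g.val) = W := by
    refine Submodule.eq_of_le_of_finrank_eq ?_ (finrank_map_gl g W)
    rintro _ ⟨v, hv, rfl⟩
    simpa using h v hv
  intro v
  refine ⟨fun hv => h v hv, fun hv => ?_⟩
  change g.val *ᵥ v ∈ W at hv
  rw [← heq] at hv
  obtain ⟨w, hw, hwv⟩ := hv
  have : w = v := mulVec_inj g (by simpa using hwv)
  exact this ▸ hw

/-- The transvection `v ↦ v + (φ ⬝ v) u`, for `φ ⬝ u = 0`. -/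
def transvec (u φ : ι → F) (h : φ ⬝ᵥ u = 0) : GL ι F where
  val := 1 + vecMulVec u φ
  inv := 1 - vecMulVec u φ
  val_inv := by
    have : vecMulVec u φ * vecMulVec u φ = 0 := by simp [vecMulVec_mul_vecMulVec, h]
    rw [add_mul, one_mul, mul_sub, mul_one, this]; abel
  inv_val := by
    have : vecMulVec u φ * vecMulVec u φ = 0 := by simp [vecMulVec_mul_vecMulVec, h]
    rw [sub_mul, one_mul, mul_add, mul_one, this]; abel

lemma transvec_mulVec (u φ : ι → F) (h : φ ⬝ᵥ u = 0) (v : ι → F) :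
    (transvec u φ h).val *ᵥ v = v + (φ ⬝ᵥ v) • u := by
  simp [transvec, add_mulVec, vecMulVec_mulVec]

lemma transvec_inv_mulVec (u φ : ι → F) (h : φ ⬝ᵥ u = 0) (v : ι → F) :
    (transvec u φ h)⁻¹.val *ᵥ v = v - (φ ⬝ᵥ v) • u := by
  simp [transvec, sub_mulVec, vecMulVec_mulVec]

lemma transvec_mem_specialLinear (u φ : ι → F) (h : φ ⬝ᵥ u = 0) :
    transvec u φ h ∈ Cfsg.Geo.specialLinear ι F := by
  refine MonoidHom.mem_ker.mpr (Units.ext ?_)
  show det (transvec u φ h).val = 1
  simp only [transvec]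
  rw [vecMulVec_eq Unit, det_one_add_replicateCol_mul_replicateRow, h, add_zero]

/-- The coordinate vector of a functional. -/
lemma exists_dot_eq (f : (ι → F) →ₗ[F] F) : ∃ φ : ι → F, ∀ v, φ ⬝ᵥ v = f v := by
  refine ⟨fun i => f (Pi.single i 1), fun v => ?_⟩
  conv_rhs => rw [pi_eq_sum_univ' v, map_sum]
  simp [dotProduct, mul_comm, map_smul]

lemma exists_dot_of_notMem {W : Submodule F (ι → F)} {v : ι → F} (hv : v ∉ W) :
    ∃ φ : ι → F, φ ⬝ᵥ v = 1 ∧ ∀ w ∈ W, φ ⬝ᵥ w = 0 := by
  obtain ⟨f, hf, hW⟩ := Submodule.exists_le_ker_of_notMem hv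
  obtain ⟨φ, hφ⟩ := exists_dot_eq ((f v)⁻¹ • f)
  exact ⟨φ, by simp [hφ, hf], fun w hw => by simp [hφ, LinearMap.mem_ker.mp (hW hw)]⟩

lemma exists_dot_eq_one {φ : ι → F} (hφ : φ ≠ 0) : ∃ w : ι → F, φ ⬝ᵥ w = 1 := by
  obtain ⟨i, hi⟩ := Function.ne_iff.mp hφ
  exact ⟨Pi.single i (φ i)⁻¹, by rw [dotProduct_single]; exact mul_inv_cancel₀ hi⟩

/-- Two functionals on a space of dimension at least 3 have a common non-zero zero. -/
lemma exists_ne_zero_dot_eq_zero (hn : 3 ≤ Fintype.card ι) (a b : ι → F) :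
    ∃ φ : ι → F, φ ≠ 0 ∧ a ⬝ᵥ φ = 0 ∧ b ⬝ᵥ φ = 0 := by
  let L : (ι → F) →ₗ[F] (F × F) := (dotProductBilin F F a).prod (dotProductBilin F F b)
  have : LinearMap.ker L ≠ ⊥ := by
    intro hker
    have := LinearMap.finrank_le_finrank_of_injective (LinearMap.ker_eq_bot.mp hker)
    rw [finrank_pi, finrank_prod, finrank_self] at this
    omega
  obtain ⟨φ, hφ, h0⟩ := Submodule.exists_mem_ne_zero_of_ne_bot this
  have hab := LinearMap.mem_ker.mp hφ
  exact ⟨φ, h0, congrArg Prod.fst hab, congrArg Prod.snd hab⟩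

lemma not_specialLinear_le_subspaceStabilizer {W : Submodule F (ι → F)} (h0 : W ≠ ⊥)
    (h1 : W ≠ ⊤) : ¬ Cfsg.Geo.specialLinear ι F ≤ Cfsg.Geo.subspaceStabilizer W := by
  intro hle
  obtain ⟨u, huW, hu⟩ := Submodule.exists_mem_ne_zero_of_ne_bot h0
  obtain ⟨v, -, hv⟩ := SetLike.exists_of_lt (lt_top_iff_ne_top.mpr h1)
  have huv : u ∉ Submodule.span F {v} := by
    intro hmem
    obtain ⟨c, rfl⟩ := Submodule.mem_span_singleton.mp hmem
    have hc : c ≠ 0 := by rintro rfl; exact hu (zero_smul F v)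
    exact hv ((Submodule.smul_mem_iff W hc).mp huW)
  obtain ⟨φ, hφu, hφ⟩ := exists_dot_of_notMem huv
  have hφv := hφ v (Submodule.mem_span_singleton_self v)
  have := (hle (transvec_mem_specialLinear v φ hφv) u).mp huW
  change (transvec v φ hφv).val *ᵥ u ∈ W at this
  rw [transvec_mulVec, hφu, one_smul] at this
  exact hv ((Submodule.add_mem_iff_right W huW).mp this)

lemma not_specialLinear_le_decompositionStabilizer {t m : ℕ} {D : Fin t → Submodule F (ι → F)}
    (hD : Cfsg.Geo.IsMDecomposition m D) :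
    ¬ Cfsg.Geo.specialLinear ι F ≤ Cfsg.Geo.decompositionStabilizer D := by
  intro hle
  have ht := hD.two_le
  let i₀ : Fin t := ⟨0, by omega⟩
  let i₁ : Fin t := ⟨1, by omega⟩
  have h01 : i₀ ≠ i₁ := by simp [i₀, i₁]
  have hne : ∀ i, D i ≠ ⊥ := fun i h => by
    have := hD.finrank_eq i
    rw [h, finrank_bot] at this
    exact absurd this hD.pos.ne
  obtain ⟨x, hxD, hx⟩ := Submodule.exists_mem_ne_zero_of_ne_bot (hne i₀)
  obtain ⟨y, hyD, hy⟩ := Submodule.exists_mem_ne_zero_of_ne_bot (hne i₁)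
  have hxy : x ∉ Submodule.span F {y} := fun h => hx <| by
    have h' : x ∈ D i₁ := (Submodule.span_singleton_le_iff_mem y (D i₁)).mpr hyD h
    exact Submodule.disjoint_def.mp (hD.indep.pairwiseDisjoint h01) x hxD h'
  obtain ⟨φ, hφx, hφ⟩ := exists_dot_of_notMem hxy
  have hφy := hφ y (Submodule.mem_span_singleton_self y)
  obtain ⟨σ, hσ⟩ := hle (transvec_mem_specialLinear y φ hφy)
  have hmem : x + y ∈ D (σ i₀) := by
    rw [← hσ i₀]
    exact ⟨x, hxD, by simp [transvec_mulVec, hφx]⟩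
  rcases eq_or_ne (σ i₀) i₀ with h | h
  · rw [h] at hmem
    exact hy (Submodule.disjoint_def.mp (hD.indep.pairwiseDisjoint h01) y
      ((Submodule.add_mem_iff_right _ hxD).mp hmem) hyD)
  rcases eq_or_ne (σ i₀) i₁ with h' | h'
  · rw [h'] at hmem
    exact hx (Submodule.disjoint_def.mp (hD.indep.pairwiseDisjoint h01) x hxD
      ((Submodule.add_mem_iff_left _ hyD).mp hmem))
  · have hsup : x + y ∈ ⨆ k ≠ σ i₀, D k :=
      add_mem (Submodule.mem_iSup_of_mem i₀ (Submodule.mem_iSup_of_mem h.symm hxD))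
        (Submodule.mem_iSup_of_mem i₁ (Submodule.mem_iSup_of_mem h'.symm hyD))
    have h0 := Submodule.disjoint_def.mp (hD.indep (σ i₀)) _ hmem hsup
    exact hx (Submodule.disjoint_def.mp (hD.indep.pairwiseDisjoint h01) x hxD
      (by rw [eq_neg_of_add_eq_zero_left h0]; exact neg_mem hyD))

/-- A matrix with every vector an eigenvector is a scalar. -/
lemma exists_eq_smul_one_of_forall_mem_span (k : Matrix ι ι F)
    (h : ∀ v, k *ᵥ v ∈ Submodule.span F {v}) : ∃ c : F, k = c • (1 : Matrix ι ι F) := by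
  have h' : ∀ v, ∃ c : F, c • v = k *ᵥ v := fun v => Submodule.mem_span_singleton.mp (h v)
  choose c hc using h'
  rcases isEmpty_or_nonempty ι with hι | ⟨⟨i₀⟩⟩
  · exact ⟨0, by ext i; exact hι.elim i⟩
  refine ⟨c (Pi.single i₀ 1), ?_⟩
  have hdiag : ∀ i j, k j i = if j = i then c (Pi.single i 1) else 0 := by
    intro i j
    have := congrFun (hc (Pi.single i 1)) j
    simpa [Pi.single_apply, mulVec_single_one, eq_comm] using this.symm
  have hall : ∀ i, c (Pi.single i 1) = c (Pi.single i₀ 1) := by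
    intro i
    rcases eq_or_ne i i₀ with rfl | hi
    · rfl
    have hk := hc (Pi.single i 1 + Pi.single i₀ 1)
    have e1 := congrFun hk i
    have e2 := congrFun hk i₀
    simp [mulVec_add, hdiag, hi, Ne.symm hi] at e1 e2
    exact e1.symm.trans e2
  ext i j
  rw [hdiag j i, Matrix.smul_apply, Matrix.one_apply]
  split <;> simp [hall]

/-- A matrix commuting with all transvections is a scalar. -/
lemma exists_eq_smul_one_of_commute_transvec (hn : 2 ≤ Fintype.card ι) (k : Matrix ι ι F)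
    (h : ∀ u φ (hu : φ ⬝ᵥ u = 0), Commute (transvec u φ hu).val k) :
    ∃ c : F, k = c • (1 : Matrix ι ι F) := by
  refine exists_eq_smul_one_of_forall_mem_span k fun u => ?_
  have hex : ∃ φ : ι → F, φ ≠ 0 ∧ φ ⬝ᵥ u = 0 := by
    let L : (ι → F) →ₗ[F] F := dotProductBilin F F u
    have : LinearMap.ker L ≠ ⊥ := by
      intro hker
      have := LinearMap.finrank_le_finrank_of_injective (LinearMap.ker_eq_bot.mp hker)
      rw [finrank_pi, finrank_self] at this
      omega
    obtain ⟨φ, hφ, h0⟩ := Submodule.exists_mem_ne_zero_of_ne_bot this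
    exact ⟨φ, h0, by rw [dotProduct_comm]; exact LinearMap.mem_ker.mp hφ⟩
  obtain ⟨φ, hφ, hφu⟩ := hex
  obtain ⟨w, hw⟩ := exists_dot_eq_one hφ
  have e := congrArg (· *ᵥ w) (h u φ hφu).eq
  simp only [← mulVec_mulVec, transvec_mulVec, hw, one_smul, mulVec_add] at e
  rw [add_right_inj] at e
  exact Submodule.mem_span_singleton.mpr ⟨_, e⟩

lemma not_specialLinear_le_subalgebraNormalizer (hn : 3 ≤ Fintype.card ι) {r : ℕ} (hr : 2 ≤ r)
    {K : Subalgebra F (Matrix ι ι F)} (hK : Cfsg.Geo.IsFieldSubalgebra r K) :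
    ¬ Cfsg.Geo.specialLinear ι F ≤ Cfsg.Geo.subalgebraNormalizer K := by
  intro hle
  have hscal : ∀ k ∈ K, ∃ c : F, k = c • (1 : Matrix ι ι F) := by
    intro k hk
    refine exists_eq_smul_one_of_commute_transvec (by omega) k fun u φ hu => ?_
    set T := transvec u φ hu with hT
    have hx : T.val * k * (T⁻¹ : GL ι F).val - k ∈ K :=
      sub_mem ((hle (transvec_mem_specialLinear u φ hu) k).mp hk) hk
    obtain ⟨v, hv, hφv, hφkv⟩ := exists_ne_zero_dot_eq_zero hn φ (φ ᵥ* k)
    have hkill : (T.val * k * (T⁻¹ : GL ι F).val - k) *ᵥ v = 0 := by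
      rw [sub_mulVec, ← mulVec_mulVec, ← mulVec_mulVec, hT, transvec_inv_mulVec, hφv, zero_smul,
        sub_zero, transvec_mulVec, dotProduct_mulVec, hφkv, zero_smul, add_zero, sub_self]
    have h0 : T.val * k * (T⁻¹ : GL ι F).val - k = 0 := by
      by_contra hne
      obtain ⟨y, hy, hxy⟩ := hK.inv _ hx hne
      have hyx : y * (T.val * k * (T⁻¹ : GL ι F).val - k) = 1 := hK.comm y hy _ hx ▸ hxy
      have := congrArg (· *ᵥ v) hyx
      simp only [← mulVec_mulVec, hkill, mulVec_zero, one_mulVec] at this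
      exact hv this.symm
    calc T.val * k = T.val * k * (T⁻¹ : GL ι F).val * T.val := by
          rw [mul_assoc (T.val * k), Units.inv_mul, mul_one]
      _ = k * T.val := by rw [sub_eq_zero.mp h0]
  have hbot : K = ⊥ := eq_bot_iff.mpr fun k hk => by
    obtain ⟨c, rfl⟩ := hscal k hk
    exact Algebra.mem_bot.mpr ⟨c, by rw [Algebra.algebraMap_eq_smul_one]⟩
  have hι : Nonempty ι := Fintype.card_pos_iff.mp (by omega)
  have := hK.finrank_eq
  rw [hbot, Subalgebra.finrank_bot] at this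
  omega

lemma not_specialLinear_le_subfieldSubgroup (hn : 2 ≤ Fintype.card ι) {F₀ : Subfield F}
    (h0 : F₀ ≠ ⊤) (P : GL ι F) :
    ¬ Cfsg.Geo.specialLinear ι F ≤ Cfsg.Geo.subfieldSubgroup F₀ P := by
  intro hle
  obtain ⟨i, j, hij⟩ := Fintype.exists_pair_of_one_lt_card (α := ι) (by omega)
  obtain ⟨a, -, ha⟩ := SetLike.exists_of_lt (lt_top_iff_ne_top.mpr h0)
  have hu : (Pi.single j a : ι → F) ⬝ᵥ Pi.single i 1 = 0 := by
    simp [dotProduct_single, hij]
  set T := transvec (Pi.single i (1 : F)) (Pi.single j a) hu with hT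
  have hmem : P * T * P⁻¹ ∈ Cfsg.Geo.specialLinear ι F :=
    (MonoidHom.normal_ker _).conj_mem T (transvec_mem_specialLinear _ _ hu) P
  obtain ⟨g, hg, hgT⟩ := Subgroup.mem_map.mp (hle hmem)
  have hgT' : P * g * P⁻¹ = P * T * P⁻¹ := hgT
  obtain rfl : g = T := mul_left_cancel (mul_right_cancel hgT')
  have hmem' : T ∈ (GeneralLinearGroup.map (F₀.subtype : F₀ →+* F)).range ⊔
      Cfsg.Geo.scalars ι F := hg
  rw [← SetLike.mem_coe, Subgroup.mul_normal, Set.mem_mul] at hmem'
  obtain ⟨_, ⟨g₀, rfl⟩, z, hz, hgz⟩ := hmem'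
  obtain ⟨c, hc⟩ := (Cfsg.Geo.mem_scalars_iff z).mp hz
  have e := congrArg Units.val hgz
  rw [Units.val_mul, hc, Matrix.mul_smul, mul_one] at e
  have hval : T.val = 1 + vecMulVec (Pi.single i (1 : F)) (Pi.single j a) := rfl
  have e1 : (c : F) * (g₀.val i i : F) = 1 := by
    simpa [hval, GeneralLinearGroup.map, vecMulVec_apply, hij] using congrFun (congrFun e i) i
  have e2 : (c : F) * (g₀.val i j : F) = a := by
    simpa [hval, GeneralLinearGroup.map, vecMulVec_apply, hij] using congrFun (congrFun e i) j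
  have hc : (c : F) ∈ F₀ := by
    rw [eq_inv_of_mul_eq_one_left e1]
    exact F₀.inv_mem (g₀.val i i).2
  exact ha (e2 ▸ F₀.mul_mem hc (g₀.val i j).2)

/-- A form additive in the second argument whose similarity group contains every transvection
vanishes. -/
lemma not_specialLinear_le_similarityGroup (hn : 3 ≤ Fintype.card ι)
    {f : (ι → F) → (ι → F) → F} (hadd : ∀ v x y, f v (x + y) = f v x + f v y)
    (hne : ∃ v x, f v x ≠ 0) :
    ¬ Cfsg.Geo.specialLinear ι F ≤ Cfsg.Geo.similarityGroup f := by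
  intro hle
  obtain ⟨v, u, hvu⟩ := hne
  obtain ⟨φ, hφ, hv, hu⟩ := exists_ne_zero_dot_eq_zero hn v u
  rw [dotProduct_comm] at hv hu
  obtain ⟨w, hw⟩ := exists_dot_eq_one hφ
  obtain ⟨c, hc⟩ := hle (transvec_mem_specialLinear u φ hu)
  have h1 := hc v u
  have h2 := hc v w
  simp only [transvec_mulVec, hv, hu, hw, zero_smul, add_zero, one_smul] at h1 h2
  have hc1 : (c : F) = 1 := by
    have : ((c : F) - 1) * f v u = 0 := by rw [sub_mul, one_mul, ← h1, sub_self]
    exact sub_eq_zero.mp ((mul_eq_zero.mp this).resolve_right hvu)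
  rw [hadd, hc1, one_mul, add_eq_left] at h2
  exact hvu h2

lemma quadSimilarityGroup_le_similarityGroup_polar (Q : (ι → F) → F) :
    Cfsg.Geo.quadSimilarityGroup Q ≤ Cfsg.Geo.similarityGroup (QuadraticMap.polar Q) := by
  rintro g ⟨c, hc⟩
  refine ⟨c, fun u v => ?_⟩
  simp only [QuadraticMap.polar, ← mulVec_add, hc, mul_sub]

lemma IsNondegenerateForm.exists_ne (hn : 0 < Fintype.card ι) {f : (ι → F) → (ι → F) → F}
    (h : Cfsg.Geo.IsNondegenerateForm f) : ∃ v x, f v x ≠ 0 := by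
  obtain ⟨i⟩ := Fintype.card_pos_iff.mp hn
  have h0 : (Pi.single i (1 : F) : ι → F) ≠ 0 := fun e => by simpa using congrFun e i
  exact ⟨_, (h _ h0).2⟩

lemma not_specialLinear_le_quadSimilarityGroup (hn : 3 ≤ Fintype.card ι) {Q : (ι → F) → F}
    (hQ : Cfsg.Geo.IsNondegenerateQuadraticForm Q) :
    ¬ Cfsg.Geo.specialLinear ι F ≤ Cfsg.Geo.quadSimilarityGroup Q := fun h =>
  not_specialLinear_le_similarityGroup hn hQ.polar_bilinear.add_right
    (IsNondegenerateForm.exists_ne (by omega) hQ.nondegenerate)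
    (h.trans (quadSimilarityGroup_le_similarityGroup_polar Q))

/-- A subgroup of a maximal subgroup's overgroup is equal to it. -/
lemma maximalIn_eq_inf {G : Type*} [Group G] {K H M : Subgroup G}
    (hH : Cfsg.Geo.IsMaximalIn K H) (hle : H ≤ M) (hne : ¬ K ≤ M) : H = M ⊓ K :=
  ((hH.2 (M ⊓ K) (le_inf hle hH.1.le) inf_le_right).resolve_right
    fun h => hne (inf_eq_right.mp h)).symm

/-- If a space is the sum of subspaces of dimension `d`, each of which meets every subspace of a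
given family trivially or lies inside it, then `d` divides the dimension of the space. -/
lemma dvd_finrank_of_translates {α : Type*} [Finite α] {d : ℕ} (S : α → Submodule F (ι → F))
    (hd : ∀ a, finrank F (S a) = d) (htop : ⨆ a, S a = ⊤)
    (hdich : ∀ (t : Set α) (a : α), S a ≤ ⨆ b ∈ t, S b ∨ Disjoint (S a) (⨆ b ∈ t, S b)) :
    d ∣ Fintype.card ι := by
  classical
  have key : ∀ t : Set α, d ∣ finrank F (⨆ b ∈ t, S b : Submodule F (ι → F)) := by
    intro t
    refine Set.Finite.induction_on _ (Set.toFinite t) ?_ ?_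
    · rw [iSup_emptyset, finrank_bot]; exact dvd_zero d
    intro a s _ _ ih
    rw [iSup_insert]
    rcases hdich s a with h | h
    · rwa [sup_eq_right.mpr h]
    · have := Submodule.finrank_sup_add_finrank_inf_eq (S a) (⨆ b ∈ s, S b)
      rw [h.eq_bot, finrank_bot, add_zero, hd] at this
      rw [this]
      exact dvd_add dvd_rfl ih
  have := key Set.univ
  rwa [iSup_univ, htop, finrank_top, finrank_pi] at this

end CfsgLib.Aschbacher
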