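import Mathlib
import Cfsg.Prelude.Def_GeometricClasses
import Cfsg.Agent.Eq.Def_GeometricClasses

/-!
Commutative subalgebras of the matrix algebra normalised by an irreducible subgroup of `GL`:
either a system of primitive idempotents permuted transitively (an imprimitivity decomposition), or a
field subalgebra, whose subfields of prime degree are again normalised.
-/

set_option autoImplicit false
set_option linter.unusedSectionVars false

namespace CfsgLib.Aschbacher.Centre

open Matrix Cfsg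

variable {ι : Type} [Fintype ι] [DecidableEq ι] {F : Type*} [Field F]

/-- `G` normalises the subalgebra `A`. -/
def Normalises (G : Subgroup (GL ι F)) (A : Subalgebra F (Matrix ι ι F)) : Prop :=
  ∀ g ∈ G, ∀ a ∈ A, (g : Matrix ι ι F) * a * ((g⁻¹ : GL ι F) : Matrix ι ι F) ∈ A

/-- Conjugation by an element of `GL`, on matrices. -/
def conjMat (g : GL ι F) (a : Matrix ι ι F) : Matrix ι ι F :=
  (g : Matrix ι ι F) * a * ((g⁻¹ : GL ι F) : Matrix ι ι F)

theorem conjMat_mul (g : GL ι F) (a b : Matrix ι ι F) :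
    conjMat g (a * b) = conjMat g a * conjMat g b := by
  simp only [conjMat, mul_assoc, Units.inv_mul_cancel_left]

theorem conjMat_conjMat (g h : GL ι F) (a : Matrix ι ι F) :
    conjMat g (conjMat h a) = conjMat (g * h) a := by
  simp only [conjMat, Units.val_mul, _root_.mul_inv_rev, mul_assoc]

theorem conjMat_one (a : Matrix ι ι F) : conjMat (1 : GL ι F) a = a := by
  simp [conjMat]

theorem conjMat_inv_cancel (g : GL ι F) (a : Matrix ι ι F) : conjMat g⁻¹ (conjMat g a) = a := by
  rw [conjMat_conjMat, inv_mul_cancel, conjMat_one]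

theorem conjMat_cancel_inv (g : GL ι F) (a : Matrix ι ι F) : conjMat g (conjMat g⁻¹ a) = a := by
  rw [conjMat_conjMat, mul_inv_cancel, conjMat_one]

theorem Normalises.conjMat_mem {G : Subgroup (GL ι F)} {A : Subalgebra F (Matrix ι ι F)}
    (h : Normalises G A) {g : GL ι F} (hg : g ∈ G) {a : Matrix ι ι F} (ha : a ∈ A) :
    conjMat g a ∈ A :=
  h g hg a ha

theorem Normalises.le_normalizer {G : Subgroup (GL ι F)} {A : Subalgebra F (Matrix ι ι F)}
    (h : Normalises G A) : G ≤ Geo.subalgebraNormalizer A := by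
  intro g hg a
  refine ⟨fun ha => h.conjMat_mem hg ha, fun ha => ?_⟩
  have := h.conjMat_mem (G.inv_mem hg) (a := conjMat g a) ha
  rwa [conjMat_inv_cancel] at this

theorem normalises_of_le {G H : Subgroup (GL ι F)} {A : Subalgebra F (Matrix ι ι F)}
    (h : Normalises G A) (hle : H ≤ G) : Normalises H A :=
  fun g hg => h g (hle hg)

theorem mulVec_conjMat (g : GL ι F) (a : Matrix ι ι F) (v : ι → F) :
    conjMat g a *ᵥ ((g : Matrix ι ι F) *ᵥ v) = (g : Matrix ι ι F) *ᵥ (a *ᵥ v) := by
  rw [Matrix.mulVec_mulVec, Matrix.mulVec_mulVec]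
  congr 1
  simp [conjMat, mul_assoc]

/-- A nonzero subspace invariant under an irreducible group is everything. -/
theorem eq_top_of_invariant {G : Subgroup (GL ι F)} (hG : Geo.ActsIrreducibly (Geo.matrixSet G))
    {W : Submodule F (ι → F)} (h0 : W ≠ ⊥)
    (hW : ∀ g ∈ G, ∀ v ∈ W, (g : Matrix ι ι F) *ᵥ v ∈ W) : W = ⊤ := by
  refine (hG W ?_).resolve_left h0
  rintro s ⟨g, hg, rfl⟩
  rw [Submodule.map_le_iff_le_comap]
  intro v hv
  simpa [Matrix.toLin'_apply] using hW g hg v hv

section Finite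

variable [Finite F]

/-- Common kernel of a commuting set of nilpotent matrices is nonzero. -/
theorem exists_common_kernel (S : Finset (Matrix ι ι F))
    (hnil : ∀ z ∈ S, IsNilpotent z) (hcomm : ∀ z ∈ S, ∀ w ∈ S, z * w = w * z) [Nonempty ι] :
    ∃ v : ι → F, v ≠ 0 ∧ ∀ z ∈ S, z *ᵥ v = 0 := by
  classical
  induction S using Finset.induction_on with
  | empty => exact ⟨1, one_ne_zero, by simp⟩
  | @insert z S hz ih =>
    obtain ⟨v, hv0, hv⟩ := ih (fun w hw => hnil w (Finset.mem_insert_of_mem hw))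
      (fun a ha b hb => hcomm a (Finset.mem_insert_of_mem ha) b (Finset.mem_insert_of_mem hb))
    obtain ⟨m, hm⟩ := hnil z (Finset.mem_insert_self z S)
    have hex : ∃ k, z ^ k *ᵥ v = 0 := ⟨m, by simp [hm]⟩
    have hk := Nat.find_spec hex
    have hkpos : Nat.find hex ≠ 0 := by
      intro h0
      rw [h0] at hk
      simp [hv0] at hk
    obtain ⟨k, hk'⟩ := Nat.exists_eq_succ_of_ne_zero hkpos
    refine ⟨z ^ k *ᵥ v, Nat.find_min hex (by omega), fun w hw => ?_⟩
    rcases Finset.mem_insert.1 hw with rfl | hwS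
    · rw [Matrix.mulVec_mulVec, ← pow_succ', ← Nat.succ_eq_add_one, ← hk']
      exact hk
    · have hc : Commute w (z ^ k) :=
        Commute.pow_right (hcomm w hw z (Finset.mem_insert_self z S)) k
      rw [Matrix.mulVec_mulVec, hc.eq, ← Matrix.mulVec_mulVec, hv w hwS, Matrix.mulVec_zero]

variable {G : Subgroup (GL ι F)} {Z : Subalgebra F (Matrix ι ι F)}

/-- A commutative subalgebra normalised by an irreducible group is reduced. -/
theorem eq_zero_of_isNilpotent (hG : Geo.ActsIrreducibly (Geo.matrixSet G)) (hN : Normalises G Z)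
    (hc : ∀ x ∈ Z, ∀ y ∈ Z, x * y = y * x) [Nonempty ι]
    {z : Matrix ι ι F} (hz : z ∈ Z) (hnil : IsNilpotent z) : z = 0 := by
  classical
  have := Fintype.ofFinite F
  let S : Finset (Matrix ι ι F) := Finset.univ.filter fun x => x ∈ Z ∧ IsNilpotent x
  obtain ⟨v, hv0, hv⟩ := exists_common_kernel S (fun x hx => (Finset.mem_filter.1 hx).2.2)
    (fun x hx y hy => hc x (Finset.mem_filter.1 hx).2.1 y (Finset.mem_filter.1 hy).2.1)
  let W : Submodule F (ι → F) :=
    { carrier := {w | ∀ x ∈ S, x *ᵥ w = 0}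
      add_mem' := fun {a b} ha hb x hx => by rw [Matrix.mulVec_add, ha x hx, hb x hx, add_zero]
      zero_mem' := fun x _ => Matrix.mulVec_zero x
      smul_mem' := fun c {a} ha x hx => by rw [Matrix.mulVec_smul, ha x hx, smul_zero] }
  have hW0 : W ≠ ⊥ := fun h => hv0 ((Submodule.eq_bot_iff W).1 h v hv)
  have htop : W = ⊤ := by
    refine eq_top_of_invariant hG hW0 fun g hg w hw x hx => ?_
    obtain ⟨-, hxZ, m, hm⟩ := Finset.mem_filter.1 hx
    have hy : conjMat g⁻¹ x ∈ S := by
      refine Finset.mem_filter.2 ⟨Finset.mem_univ _, hN.conjMat_mem (G.inv_mem hg) hxZ, m, ?_⟩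
      have : conjMat g⁻¹ x ^ m = conjMat g⁻¹ (x ^ m) := by
        simp only [conjMat]
        exact Units.conj_pow _ _ _
      rw [this, hm]
      simp [conjMat]
    conv_lhs => rw [← conjMat_cancel_inv g x]
    rw [mulVec_conjMat, hw _ hy, Matrix.mulVec_zero]
  ext1 i j
  have := (htop ▸ Submodule.mem_top : (Pi.single j 1 : ι → F) ∈ W) z
    (Finset.mem_filter.2 ⟨Finset.mem_univ _, hz, hnil⟩)
  simpa using congrFun this i

/-- Some positive power of every element of a finite monoid is idempotent. -/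
theorem exists_pow_idem {M : Type*} [Monoid M] [Finite M] (x : M) :
    ∃ m : ℕ, 0 < m ∧ x ^ m * x ^ m = x ^ m := by
  obtain ⟨i, j, hne, hij⟩ := Finite.exists_ne_map_eq_of_infinite (fun n : ℕ => x ^ n)
  wlog hlt : i < j generalizing i j
  · exact this j i hne.symm hij.symm (by omega)
  obtain ⟨d, rfl⟩ := Nat.exists_eq_add_of_lt hlt
  have per : ∀ k, x ^ (i + k * (d + 1)) = x ^ i := by
    intro k
    induction k with
    | zero => simp
    | succ k ih =>
      rw [Nat.succ_mul, ← add_assoc, pow_add, ih, ← pow_add]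
      exact (by simpa [add_assoc] using hij.symm)
  refine ⟨(i + 1) * (d + 1), by positivity, ?_⟩
  have hle : i ≤ (i + 1) * (d + 1) := by nlinarith
  obtain ⟨r, hr⟩ := Nat.exists_eq_add_of_le hle
  rw [← pow_add]
  calc x ^ ((i + 1) * (d + 1) + (i + 1) * (d + 1))
      = x ^ ((i + (i + 1) * (d + 1)) + r) := by congr 1; omega
    _ = x ^ ((i + 1) * (d + 1)) := by rw [pow_add, per, ← pow_add, ← hr]

/-- `Z` is a field subalgebra, without a degree specified. -/
def IsFieldLike (Z : Subalgebra F (Matrix ι ι F)) : Prop :=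
  ∀ x ∈ Z, x ≠ 0 → ∃ y ∈ Z, x * y = 1

/-- The idempotents of `Z` minimal among the nonzero ones. -/
def primIdems (Z : Subalgebra F (Matrix ι ι F)) : Set (Matrix ι ι F) :=
  {e | e ∈ Z ∧ e * e = e ∧ e ≠ 0 ∧ ∀ f ∈ Z, f * f = f → f * e = f → f = 0 ∨ f = e}

theorem exists_primIdem_le (hc : ∀ x ∈ Z, ∀ y ∈ Z, x * y = y * x)
    {s : Matrix ι ι F} (hs : s ∈ Z) (hss : s * s = s) (hs0 : s ≠ 0) :
    ∃ e ∈ primIdems Z, e * s = e := by
  classical
  have := Fintype.ofFinite F
  let T : Finset (Matrix ι ι F) :=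
    Finset.univ.filter fun f => f ∈ Z ∧ f * f = f ∧ f ≠ 0 ∧ f * s = f
  let below : Matrix ι ι F → ℕ := fun f =>
    (Finset.univ.filter fun h => h ∈ Z ∧ h * h = h ∧ h * f = h).card
  obtain ⟨e, he, hmin⟩ := T.exists_min_image below
    ⟨s, Finset.mem_filter.2 ⟨Finset.mem_univ _, hs, hss, hs0, hss⟩⟩
  obtain ⟨-, heZ, hee, he0, hes⟩ := Finset.mem_filter.1 he
  refine ⟨e, ⟨heZ, hee, he0, fun f hf hff hfe => ?_⟩, hes⟩
  by_contra! h
  have hfT : f ∈ T := Finset.mem_filter.2 ⟨Finset.mem_univ _, hf, hff, h.1,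
    by rw [← hfe, mul_assoc, hes]⟩
  refine absurd (hmin f hfT) (not_le.2 ?_)
  refine Finset.card_lt_card ((Finset.ssubset_iff_of_subset ?_).2 ⟨e, ?_, ?_⟩)
  · intro k hk
    obtain ⟨-, hkZ, hkk, hkf⟩ := Finset.mem_filter.1 hk
    exact Finset.mem_filter.2 ⟨Finset.mem_univ _, hkZ, hkk, by rw [← hkf, mul_assoc, hfe]⟩
  · exact Finset.mem_filter.2 ⟨Finset.mem_univ _, heZ, hee, hee⟩
  · intro hef
    have hef' := (Finset.mem_filter.1 hef).2.2.2
    exact h.2 (hfe.symm.trans ((hc f hf e heZ).trans hef'))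

theorem primIdems_orthogonal (hc : ∀ x ∈ Z, ∀ y ∈ Z, x * y = y * x) {e f : Matrix ι ι F}
    (he : e ∈ primIdems Z) (hf : f ∈ primIdems Z) (hne : e ≠ f) : e * f = 0 := by
  obtain ⟨heZ, hee, -, hemin⟩ := he
  obtain ⟨hfZ, hff, -, hfmin⟩ := hf
  have hid : (e * f) * (e * f) = e * f := by
    rw [mul_assoc e f, ← mul_assoc f e, hc f hfZ e heZ, mul_assoc e f f, hff, ← mul_assoc, hee]
  by_contra h0
  have h1 : e * f = e := (hemin _ (Z.mul_mem heZ hfZ) hid
    (by rw [mul_assoc, hc f hfZ e heZ, ← mul_assoc, hee])).resolve_left h0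
  have h2 : e * f = f := (hfmin _ (Z.mul_mem heZ hfZ) hid
    (by rw [mul_assoc, hff])).resolve_left h0
  exact hne (h1.symm.trans h2)

theorem sum_primIdems (hc : ∀ x ∈ Z, ∀ y ∈ Z, x * y = y * x)
    (E : Finset (Matrix ι ι F)) (hE : ∀ e, e ∈ E ↔ e ∈ primIdems Z) : ∑ e ∈ E, e = 1 := by
  classical
  set s := ∑ e ∈ E, e with hs
  have hsZ : s ∈ Z := Subalgebra.sum_mem _ fun e he => ((hE e).1 he).1
  have hes : ∀ e ∈ E, e * s = e := by
    intro e he
    rw [hs, Finset.mul_sum, Finset.sum_eq_single e]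
    · exact ((hE e).1 he).2.1
    · intro f hf hne
      exact primIdems_orthogonal hc ((hE e).1 he) ((hE f).1 hf) hne.symm
    · exact fun h => absurd he h
  have hss : s * s = s := by
    conv_lhs => arg 1; rw [hs]
    rw [Finset.sum_mul, Finset.sum_congr rfl hes]
  by_contra hne
  have ht : (1 - s) * (1 - s) = 1 - s := by
    simp [sub_mul, mul_sub, hss]
  obtain ⟨e, he, hle⟩ := exists_primIdem_le hc (Z.sub_mem Z.one_mem hsZ) ht
    (sub_ne_zero.2 (Ne.symm hne))
  have := hes e ((hE e).2 he)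
  rw [mul_sub, mul_one, this, sub_self] at hle
  exact he.2.2.1 hle.symm

theorem conjMat_mem_primIdems (hN : Normalises G Z) {g : GL ι F} (hg : g ∈ G) {e : Matrix ι ι F}
    (he : e ∈ primIdems Z) : conjMat g e ∈ primIdems Z := by
  obtain ⟨heZ, hee, he0, hmin⟩ := he
  refine ⟨hN.conjMat_mem hg heZ, by rw [← conjMat_mul, hee], fun h => he0 ?_, fun f hf hff hfe => ?_⟩
  · rw [← conjMat_inv_cancel g e, h]; simp [conjMat]
  · have key := hmin (conjMat g⁻¹ f) (hN.conjMat_mem (G.inv_mem hg) hf)
      (by rw [← conjMat_mul, hff]) (by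
        conv_lhs => rw [← conjMat_inv_cancel g e]
        rw [← conjMat_mul, hfe])
    rcases key with h | h
    · left; rw [← conjMat_cancel_inv g f, h]; simp [conjMat]
    · right; rw [← h, conjMat_cancel_inv]

/-- An irreducible group permutes the primitive idempotents transitively. -/
theorem exists_conj_eq (hG : Geo.ActsIrreducibly (Geo.matrixSet G)) (hN : Normalises G Z)
    (hc : ∀ x ∈ Z, ∀ y ∈ Z, x * y = y * x)
    {e f : Matrix ι ι F} (he : e ∈ primIdems Z) (hf : f ∈ primIdems Z) :
    ∃ g ∈ G, conjMat g e = f := by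
  classical
  by_contra! hne
  have hkill : ∀ g ∈ G, f * conjMat g e = 0 := fun g hg =>
    primIdems_orthogonal hc hf (conjMat_mem_primIdems hN hg he) (hne g hg).symm
  let W : Submodule F (ι → F) := Submodule.span F
    {w | ∃ g ∈ G, ∃ v : ι → F, w = conjMat g e *ᵥ v}
  have hW0 : W ≠ ⊥ := by
    intro h
    apply he.2.2.1
    ext1 i j
    have := (Submodule.eq_bot_iff W).1 h (e *ᵥ Pi.single j 1)
      (Submodule.subset_span ⟨1, G.one_mem, Pi.single j 1, by rw [conjMat_one]⟩)
    simpa using congrFun this i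
  have htop : W = ⊤ := by
    refine eq_top_of_invariant hG hW0 fun g hg v hv => ?_
    induction hv using Submodule.span_induction with
    | mem x hx =>
      obtain ⟨k, hk, u, rfl⟩ := hx
      refine Submodule.subset_span ⟨g * k, G.mul_mem hg hk, (g : Matrix ι ι F) *ᵥ u, ?_⟩
      rw [← conjMat_conjMat, mulVec_conjMat]
    | zero => simp
    | add x y _ _ hx hy => rw [Matrix.mulVec_add]; exact W.add_mem hx hy
    | smul a x _ hx => rw [Matrix.mulVec_smul]; exact W.smul_mem a hx
  have hfW : ∀ w ∈ W, f *ᵥ w = 0 := by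
    intro w hw
    induction hw using Submodule.span_induction with
    | mem x hx =>
      obtain ⟨k, hk, u, rfl⟩ := hx
      rw [Matrix.mulVec_mulVec, hkill k hk, Matrix.zero_mulVec]
    | zero => simp
    | add x y _ _ hx hy => rw [Matrix.mulVec_add, hx, hy, add_zero]
    | smul a x _ hx => rw [Matrix.mulVec_smul, hx, smul_zero]
  apply hf.2.2.1
  ext1 i j
  simpa using congrFun (hfW (Pi.single j 1) (htop ▸ Submodule.mem_top)) i

/-- An idempotent system in `Z` permuted transitively by `G`, with at least two members. -/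
structure IdemSystem (G : Subgroup (GL ι F)) (Z : Subalgebra F (Matrix ι ι F)) (t : ℕ) where
  e : Fin t → Matrix ι ι F
  two_le : 2 ≤ t
  mem : ∀ i, e i ∈ Z
  ne_zero : ∀ i, e i ≠ 0
  idem : ∀ i, e i * e i = e i
  ortho : ∀ i j, i ≠ j → e i * e j = 0
  sum_eq : ∑ i, e i = 1
  range_eq : Set.range e = primIdems Z
  inj : Function.Injective e
  perm : ∀ g ∈ G, ∃ σ : Equiv.Perm (Fin t), ∀ i, conjMat g (e i) = e (σ i)
  trans : ∀ i j, ∃ g ∈ G, conjMat g (e i) = e j

/-- A commutative subalgebra normalised by an irreducible group is a field or yields an idempotent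
system. -/
theorem fieldLike_or_idemSystem (hG : Geo.ActsIrreducibly (Geo.matrixSet G)) (hN : Normalises G Z)
    (hc : ∀ x ∈ Z, ∀ y ∈ Z, x * y = y * x) [Nonempty ι] :
    IsFieldLike Z ∨ ∃ t, Nonempty (IdemSystem G Z t) := by
  classical
  by_cases hone : ∀ e ∈ Z, e * e = e → e = 0 ∨ e = 1
  · left
    intro x hx hx0
    obtain ⟨m, hm0, hm⟩ := exists_pow_idem x
    rcases hone _ (Z.pow_mem hx m) hm with h | h
    · exact absurd (eq_zero_of_isNilpotent hG hN hc hx ⟨m, h⟩) hx0
    · refine ⟨x ^ (m - 1), Z.pow_mem hx _, ?_⟩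
      rw [← pow_succ', Nat.sub_add_cancel hm0, h]
  · right
    have := Fintype.ofFinite F
    let E : Finset (Matrix ι ι F) := Finset.univ.filter fun e => e ∈ primIdems Z
    have hE : ∀ e, e ∈ E ↔ e ∈ primIdems Z := fun e => by simp [E]
    let σ : E ≃ Fin E.card := E.equivFin
    have hsum := sum_primIdems hc E hE
    have htwo : 2 ≤ E.card := by
      by_contra hlt
      apply hone
      intro e heZ hee
      by_contra! h
      obtain ⟨a, ha, hae⟩ := exists_primIdem_le hc heZ hee h.1
      have hE1 : E = {a} := Finset.eq_singleton_iff_unique_mem.2 ⟨(hE a).2 ha, fun b hb =>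
        Finset.card_le_one.1 (by omega) b hb a ((hE a).2 ha)⟩
      rw [hE1, Finset.sum_singleton] at hsum
      rw [hsum, one_mul] at hae
      exact h.2 hae
    let e : Fin E.card → Matrix ι ι F := fun i => (σ.symm i : Matrix ι ι F)
    have hmem : ∀ i, e i ∈ primIdems Z := fun i => (hE _).1 (σ.symm i).2
    have hinj : Function.Injective e := Subtype.val_injective.comp σ.symm.injective
    have hrange : Set.range e = primIdems Z := by
      ext x
      refine ⟨fun ⟨i, hi⟩ => hi ▸ hmem i, fun hx => ⟨σ ⟨x, (hE x).2 hx⟩, ?_⟩⟩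
      simp [e]
    refine ⟨E.card, ⟨⟨e, htwo, fun i => (hmem i).1, fun i => (hmem i).2.2.1, fun i => (hmem i).2.1,
      fun i j hij => primIdems_orthogonal hc (hmem i) (hmem j) fun h => hij (hinj h), ?_, hrange, hinj,
      ?_, fun i j => exists_conj_eq hG hN hc (hmem i) (hmem j)⟩⟩⟩
    · rw [← hsum, ← Finset.sum_coe_sort E]
      exact Fintype.sum_equiv σ.symm _ _ fun i => rfl
    · intro g hg
      have hex : ∀ i, ∃ j, e j = conjMat g (e i) := fun i => by
        have := conjMat_mem_primIdems hN hg (hmem i)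
        rwa [← hrange] at this
      choose s hs using hex
      have hsinj : Function.Injective s := by
        intro i j hij
        apply hinj
        rw [← conjMat_inv_cancel g (e i), ← hs i, hij, hs j, conjMat_inv_cancel]
      exact ⟨Equiv.ofBijective s (Finite.injective_iff_bijective.1 hsinj), fun i => (hs i).symm⟩

end Finite

/-- A system of at least two orthogonal idempotents with sum one, permuted transitively by `G`. -/
structure Frame (G : Subgroup (GL ι F)) (t : ℕ) where
  e : Fin t → Matrix ι ι F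
  two_le : 2 ≤ t
  ne_zero : ∀ i, e i ≠ 0
  idem : ∀ i, e i * e i = e i
  ortho : ∀ i j, i ≠ j → e i * e j = 0
  sum_eq : ∑ i, e i = 1
  perm : ∀ g ∈ G, ∃ σ : Equiv.Perm (Fin t), ∀ i, conjMat g (e i) = e (σ i)
  trans : ∀ i j, ∃ g ∈ G, conjMat g (e i) = e j

/-- The subspace attached to a member of a frame. -/
def Frame.space {G : Subgroup (GL ι F)} {t : ℕ}
    (S : Frame G t) (i : Fin t) : Submodule F (ι → F) :=
  LinearMap.range (Matrix.toLin' (S.e i))

variable {G : Subgroup (GL ι F)} {t : ℕ}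

theorem Frame.mem_space (S : Frame G t) {i : Fin t} {v : ι → F} :
    v ∈ S.space i ↔ S.e i *ᵥ v = v := by
  constructor
  · rintro ⟨u, rfl⟩
    rw [Matrix.toLin'_apply, Matrix.mulVec_mulVec, S.idem]
  · exact fun h => ⟨v, h⟩

theorem Frame.map_space (S : Frame G t) {g : GL ι F} {i j : Fin t}
    (h : conjMat g (S.e i) = S.e j) :
    (S.space i).map (Matrix.toLin' (g : Matrix ι ι F)) = S.space j := by
  ext v
  simp only [Submodule.mem_map, S.mem_space, Matrix.toLin'_apply]
  constructor
  · rintro ⟨u, hu, rfl⟩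
    rw [← h, mulVec_conjMat, hu]
  · intro hv
    refine ⟨((g⁻¹ : GL ι F) : Matrix ι ι F) *ᵥ v, ?_, ?_⟩
    · rw [← conjMat_inv_cancel g (S.e i), h, mulVec_conjMat, hv]
    · rw [Matrix.mulVec_mulVec, Units.mul_inv, Matrix.one_mulVec]

theorem Frame.isMDecomposition (S : Frame G t) :
    ∃ m, Geo.IsMDecomposition m S.space ∧ t * m = Fintype.card ι := by
  classical
  have h0 : 0 < t := by have := S.two_le; omega
  let i₀ : Fin t := ⟨0, h0⟩
  have hrank : ∀ i, Module.finrank F (S.space i) = Module.finrank F (S.space i₀) := by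
    intro i
    obtain ⟨g, -, hg⟩ := S.trans i₀ i
    rw [← S.map_space hg]
    exact (LinearEquiv.finrank_eq (Submodule.equivMapOfInjective _
      (Matrix.mulVec_injective_iff_isUnit.2 g.isUnit) _)).symm
  have hpos : 0 < Module.finrank F (S.space i₀) := by
    rw [Nat.pos_iff_ne_zero, Ne, Submodule.finrank_eq_zero, Submodule.eq_bot_iff]
    intro h
    apply S.ne_zero i₀
    ext1 a b
    have := h (S.e i₀ *ᵥ Pi.single b 1) ⟨Pi.single b 1, rfl⟩
    simpa using congrFun this a
  have hindep : iSupIndep S.space := by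
    intro i
    rw [Submodule.disjoint_def]
    intro v hv hv'
    have hle : (⨆ (j) (_ : j ≠ i), S.space j) ≤ LinearMap.ker (Matrix.toLin' (S.e i)) :=
      iSup₂_le fun j hj u hu => by
        rw [LinearMap.mem_ker, Matrix.toLin'_apply, ← S.mem_space.1 hu, Matrix.mulVec_mulVec,
          S.ortho i j (Ne.symm hj), Matrix.zero_mulVec]
    have := hle hv'
    rw [LinearMap.mem_ker, Matrix.toLin'_apply, S.mem_space.1 hv] at this
    exact this
  have htop : iSup S.space = ⊤ := by
    refine Submodule.eq_top_iff'.2 fun v => ?_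
    rw [← Matrix.one_mulVec v, ← S.sum_eq, Matrix.sum_mulVec]
    exact Submodule.sum_mem _ fun i _ => Submodule.mem_iSup_of_mem i ⟨v, rfl⟩
  refine ⟨_, ⟨S.two_le, hpos, hrank, hindep, htop⟩, ?_⟩
  have hint : DirectSum.IsInternal S.space :=
    DirectSum.isInternal_submodule_of_iSupIndep_of_iSup_eq_top hindep htop
  have := (LinearEquiv.ofBijective (DirectSum.coeLinearMap S.space) hint).finrank_eq
  rw [Module.finrank_directSum, Module.finrank_pi, Finset.sum_congr rfl fun i _ => hrank i] at this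
  simpa using this

theorem Frame.le_stabilizer (S : Frame G t) :
    G ≤ Geo.decompositionStabilizer S.space := by
  intro g hg
  obtain ⟨σ, hσ⟩ := S.perm g hg
  exact ⟨σ, fun i => S.map_space (hσ i)⟩

/-- An idempotent system of a normalised subalgebra is a frame. -/
def IdemSystem.toFrame {G : Subgroup (GL ι F)} {Z : Subalgebra F (Matrix ι ι F)} {t : ℕ}
    (S : IdemSystem G Z t) : Frame G t :=
  ⟨S.e, S.two_le, S.ne_zero, S.idem, S.ortho, S.sum_eq, S.perm, S.trans⟩

/-- The subspace attached to a member of an idempotent system. -/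
def IdemSystem.space {G : Subgroup (GL ι F)} {Z : Subalgebra F (Matrix ι ι F)} {t : ℕ}
    (S : IdemSystem G Z t) (i : Fin t) : Submodule F (ι → F) :=
  LinearMap.range (Matrix.toLin' (S.e i))

variable {Z : Subalgebra F (Matrix ι ι F)}

theorem IdemSystem.mem_space (S : IdemSystem G Z t) {i : Fin t} {v : ι → F} :
    v ∈ S.space i ↔ S.e i *ᵥ v = v :=
  S.toFrame.mem_space

theorem IdemSystem.map_space (S : IdemSystem G Z t) {g : GL ι F} {i j : Fin t}
    (h : conjMat g (S.e i) = S.e j) :
    (S.space i).map (Matrix.toLin' (g : Matrix ι ι F)) = S.space j :=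
  S.toFrame.map_space h

theorem IdemSystem.isMDecomposition (S : IdemSystem G Z t) :
    ∃ m, Geo.IsMDecomposition m S.space ∧ t * m = Fintype.card ι :=
  S.toFrame.isMDecomposition

theorem IdemSystem.le_stabilizer (S : IdemSystem G Z t) :
    G ≤ Geo.decompositionStabilizer S.space :=
  S.toFrame.le_stabilizer

end CfsgLib.Aschbacher.Centre
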