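import Cfsg.Agent.Aschbacher.Basic

/-!
Clifford theory in prime dimension: a subgroup normalised by an irreducible group is scalar, or
commutative with an induced imprimitive or extension-field structure, or absolutely irreducible.
-/

set_option autoImplicit false

namespace CfsgLib.Aschbacher

open Matrix Module
open scoped MatrixGroups

variable {ι : Type} [Fintype ι] [DecidableEq ι] {F : Type*} [Field F]

/-- `W` is mapped into itself by all members of `N`. -/
def IsInvariantUnder (N : Subgroup (GL ι F)) (W : Submodule F (ι → F)) : Prop :=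
  ∀ x ∈ N, ∀ v ∈ W, x.val *ᵥ v ∈ W

lemma IsInvariantUnder.map_le {N : Subgroup (GL ι F)} {W : Submodule F (ι → F)}
    (h : IsInvariantUnder N W) : ∀ s ∈ Cfsg.Geo.matrixSet N, W.map (toLin' s) ≤ W := by
  rintro _ ⟨x, hx, rfl⟩ _ ⟨v, hv, rfl⟩
  simpa using h x hx v hv

lemma eq_bot_or_top_of_invariant {N : Subgroup (GL ι F)}
    (hirr : Cfsg.Geo.ActsIrreducibly (Cfsg.Geo.matrixSet N)) {W : Submodule F (ι → F)}
    (h : IsInvariantUnder N W) : W = ⊥ ∨ W = ⊤ :=
  hirr W h.map_le

lemma actsIrreducibly_of_forall {N : Subgroup (GL ι F)}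
    (h : ∀ W : Submodule F (ι → F), IsInvariantUnder N W → W = ⊥ ∨ W = ⊤) :
    Cfsg.Geo.ActsIrreducibly (Cfsg.Geo.matrixSet N) :=
  fun W hW => h W fun x hx v hv => hW x.val ⟨x, hx, rfl⟩ ⟨v, hv, by simp⟩

/-- The matrices commuting with every element of `N`. -/
def commutant (N : Subgroup (GL ι F)) : Subalgebra F (Matrix ι ι F) :=
  Subalgebra.centralizer F (Cfsg.Geo.matrixSet N)

lemma mem_commutant {N : Subgroup (GL ι F)} {M : Matrix ι ι F} :
    M ∈ commutant N ↔ ∀ x ∈ N, x.val * M = M * x.val := by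
  simp [commutant, Subalgebra.mem_centralizer_iff, Cfsg.Geo.matrixSet]

lemma isUnit_of_mem_commutant {N : Subgroup (GL ι F)}
    (hirr : Cfsg.Geo.ActsIrreducibly (Cfsg.Geo.matrixSet N)) {M : Matrix ι ι F}
    (hM : M ∈ commutant N) (h0 : M ≠ 0) : IsUnit M := by
  have hinv : IsInvariantUnder N (LinearMap.ker (toLin' M)) := by
    intro x hx v hv
    simp only [LinearMap.mem_ker, toLin'_apply] at hv ⊢
    rw [mulVec_mulVec, ← mem_commutant.mp hM x hx, ← mulVec_mulVec, hv, mulVec_zero]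
  rcases eq_bot_or_top_of_invariant hirr hinv with h | h
  · exact mulVec_injective_iff_isUnit.mp (LinearMap.ker_eq_bot.mp h)
  · exact absurd (toLin'.map_eq_zero_iff.mp (LinearMap.ker_eq_top.mp h)) h0

lemma exists_inv_of_mem_commutant {N : Subgroup (GL ι F)}
    (hirr : Cfsg.Geo.ActsIrreducibly (Cfsg.Geo.matrixSet N)) {M : Matrix ι ι F}
    (hM : M ∈ commutant N) (h0 : M ≠ 0) : ∃ y ∈ commutant N, M * y = 1 := by
  obtain ⟨u, rfl⟩ := isUnit_of_mem_commutant hirr hM h0
  refine ⟨(u⁻¹ : GL ι F).val, mem_commutant.mpr fun x hx => ?_, Units.mul_inv u⟩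
  have h : x * u = u * x := Units.ext (mem_commutant.mp hM x hx)
  exact congrArg Units.val (show x * u⁻¹ = u⁻¹ * x from (Commute.inv_right h).eq)

lemma commutant_comm [Finite F] [Nonempty ι] {N : Subgroup (GL ι F)}
    (hirr : Cfsg.Geo.ActsIrreducibly (Cfsg.Geo.matrixSet N)) :
    ∀ x ∈ commutant N, ∀ y ∈ commutant N, x * y = y * x := by
  have : NoZeroDivisors (commutant N) := by
    refine ⟨fun {a b} hab => or_iff_not_imp_left.mpr fun ha => ?_⟩
    have hu := isUnit_of_mem_commutant hirr a.2 (by simpa using ha)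
    have : a.val * b.val = 0 := congrArg Subtype.val hab
    exact Subtype.ext (hu.mul_right_eq_zero.mp this)
  have : IsDomain (commutant N) := NoZeroDivisors.to_isDomain _
  intro x hx y hy
  exact congrArg Subtype.val ((Finite.isDomain_to_isField (commutant N)).mul_comm ⟨x, hx⟩ ⟨y, hy⟩)

lemma mulVec_injective_of_inv {K : Subalgebra F (Matrix ι ι F)}
    (hinv : ∀ x ∈ K, x ≠ 0 → ∃ y ∈ K, x * y = 1) {v : ι → F} (hv : v ≠ 0) :
    Function.Injective fun k : K => k.val *ᵥ v := by
  intro a b hab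
  by_contra hne
  obtain ⟨y, -, hy⟩ := hinv (a.val - b.val) (sub_mem a.2 b.2)
    (sub_ne_zero.mpr fun e => hne (Subtype.ext e))
  have hy' := mul_eq_one_comm.mp hy
  have : (y * (a.val - b.val)) *ᵥ v = 0 := by
    rw [← mulVec_mulVec, sub_mulVec, show a.val *ᵥ v = b.val *ᵥ v from hab, sub_self, mulVec_zero]
  rw [hy', one_mulVec] at this
  exact hv this

/-- The map `k ↦ k v`. -/
def evalAt (K : Subalgebra F (Matrix ι ι F)) (v : ι → F) : K →ₗ[F] (ι → F) where
  toFun k := k.val *ᵥ v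
  map_add' a b := add_mulVec _ _ v
  map_smul' c a := smul_mulVec c a.val v

lemma finrank_dvd_card [Finite F] [Nonempty ι] {K : Subalgebra F (Matrix ι ι F)}
    (hinv : ∀ x ∈ K, x ≠ 0 → ∃ y ∈ K, x * y = 1) : finrank F K ∣ Fintype.card ι := by
  refine dvd_finrank_of_translates
    (α := {v : ι → F // v ≠ 0}) (fun v => LinearMap.range (evalAt K v.1)) (fun v => ?_) ?_ ?_
  · exact LinearMap.finrank_range_of_inj (mulVec_injective_of_inv hinv v.2)
  · refine eq_top_iff.mpr fun v _ => ?_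
    rcases eq_or_ne v 0 with rfl | hv
    · exact zero_mem _
    · exact Submodule.mem_iSup_of_mem ⟨v, hv⟩ ⟨1, one_mulVec v⟩
  · intro t v
    set X := ⨆ b ∈ t, LinearMap.range (evalAt K b.1) with hX
    have hXK : ∀ k ∈ K, X.map (toLin' k) ≤ X := by
      intro k hk
      rw [hX, Submodule.map_iSup]
      refine iSup_mono fun b => ?_
      rw [Submodule.map_iSup]
      refine iSup_mono fun _ => ?_
      rintro _ ⟨_, ⟨l, rfl⟩, rfl⟩
      exact ⟨⟨k * l.val, mul_mem hk l.2⟩, by simp [evalAt, mulVec_mulVec]⟩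
    refine or_iff_not_imp_right.mpr fun hnd => ?_
    rw [Submodule.disjoint_def] at hnd
    push Not at hnd
    obtain ⟨_, ⟨k, rfl⟩, hkX, hk0⟩ := hnd
    have hk : k.val ≠ 0 := fun e => hk0 (by simp [evalAt, e])
    obtain ⟨y, hy, hky⟩ := hinv _ k.2 hk
    have hvX : v.1 ∈ X := hXK y hy ⟨_, hkX, by
      simp [evalAt, mulVec_mulVec, mul_eq_one_comm.mp hky]⟩
    rintro _ ⟨l, rfl⟩
    exact hXK l.val l.2 ⟨_, hvX, by simp [evalAt]⟩

/-- A matrix commuting with a maximal subfield lies in it. -/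
lemma mem_of_forall_commute [Nonempty ι] {K : Subalgebra F (Matrix ι ι F)}
    (hK : Cfsg.Geo.IsFieldSubalgebra (Fintype.card ι) K) {M : Matrix ι ι F}
    (hM : ∀ k ∈ K, M * k = k * M) : M ∈ K := by
  obtain ⟨v, hv⟩ := exists_ne (0 : ι → F)
  have hinj : Function.Injective (evalAt K v) := mulVec_injective_of_inv hK.inv hv
  have hsurj : Function.Surjective (evalAt K v) :=
    (LinearMap.injective_iff_surjective_of_finrank_eq_finrank
      (by rw [hK.finrank_eq, finrank_pi])).mp hinj
  obtain ⟨k₀, hk₀⟩ := hsurj (M *ᵥ v)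
  have hk₀' : k₀.val *ᵥ v = M *ᵥ v := hk₀
  have : M = k₀.val := by
    refine Matrix.ext_iff_mulVec.mpr fun w => ?_
    obtain ⟨k, rfl⟩ := hsurj w
    change M *ᵥ (k.val *ᵥ v) = k₀.val *ᵥ (k.val *ᵥ v)
    rw [mulVec_mulVec, hM _ k.2, ← mulVec_mulVec, ← hk₀', mulVec_mulVec, hK.comm _ k.2 _ k₀.2,
      ← mulVec_mulVec]
  exact this ▸ k₀.2

lemma le_subalgebraNormalizer_commutant {H N : Subgroup (GL ι F)}
    (hnorm : ∀ h ∈ H, ∀ x ∈ N, h * x * h⁻¹ ∈ N) :
    H ≤ Cfsg.Geo.subalgebraNormalizer (commutant N) := by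
  have key : ∀ h ∈ H, ∀ k ∈ commutant N, h.val * k * (h⁻¹ : GL ι F).val ∈ commutant N := by
    intro h hh k hk
    refine mem_commutant.mpr fun x hx => ?_
    have hx' := hnorm h⁻¹ (inv_mem hh) x hx
    rw [inv_inv] at hx'
    have e := mem_commutant.mp hk _ hx'
    simp only [Units.val_mul] at e
    calc x.val * (h.val * k * (h⁻¹ : GL ι F).val)
        = h.val * (((h⁻¹ : GL ι F).val * x.val * h.val) * k) * (h⁻¹ : GL ι F).val := by
          simp [mul_assoc]
      _ = h.val * (k * ((h⁻¹ : GL ι F).val * x.val * h.val)) * (h⁻¹ : GL ι F).val := by rw [e]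
      _ = h.val * k * (h⁻¹ : GL ι F).val * x.val := by simp [mul_assoc]
  intro h hh k
  refine ⟨key h hh k, fun hk => ?_⟩
  have := key h⁻¹ (inv_mem hh) _ hk
  simpa [mul_assoc] using this

/-- Every element of `H` permutes the lines spanned by the basis vectors. -/
def IsMonomial (H : Subgroup (GL ι F)) (b : Basis ι F (ι → F)) : Prop :=
  ∀ h ∈ H, ∃ (σ : Equiv.Perm ι) (c : ι → F), ∀ i, h.val *ᵥ b i = c i • b (σ i)

/-- An eigenvector common to all of `N`. -/
def IsCommonEigen (N : Subgroup (GL ι F)) (v : ι → F) : Prop :=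
  ∀ x ∈ N, ∃ c : F, x.val *ᵥ v = c • v

/-- The characters of `N` on the basis vectors are pairwise distinct. -/
def Separates (N : Subgroup (GL ι F)) (b : Basis ι F (ι → F)) : Prop :=
  ∀ i j, (∀ x ∈ N, ∀ c : F, x.val *ᵥ b i = c • b i → x.val *ᵥ b j = c • b j) → i = j

lemma exists_basis_eigen_of_reducible {H N : Subgroup (GL ι F)} [Finite F]
    (hp : (Fintype.card ι).Prime) (hirr : Cfsg.Geo.ActsIrreducibly (Cfsg.Geo.matrixSet H))
    (hnorm : ∀ h ∈ H, ∀ x ∈ N, h * x * h⁻¹ ∈ N)
    (hred : ¬ Cfsg.Geo.ActsIrreducibly (Cfsg.Geo.matrixSet N)) :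
    ∃ b : Basis ι F (ι → F), ∀ i, IsCommonEigen N (b i) := by
  classical
  have hne : ∃ W : Submodule F (ι → F), IsInvariantUnder N W ∧ W ≠ ⊥ ∧ W ≠ ⊤ := by
    by_contra! hcon
    exact hred (actsIrreducibly_of_forall fun W hW => or_iff_not_imp_left.mpr (hcon W hW))
  obtain ⟨W₁, hW₁, hW₁0, hW₁1⟩ := hne
  have hex : ∃ d, ∃ W : Submodule F (ι → F), IsInvariantUnder N W ∧ W ≠ ⊥ ∧ finrank F W = d :=
    ⟨_, W₁, hW₁, hW₁0, rfl⟩
  obtain ⟨W, hWinv, hW0, hWd⟩ := Nat.find_spec hex
  have hmin : ∀ U : Submodule F (ι → F), IsInvariantUnder N U → U ≠ ⊥ → U ≤ ⊤ →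
      finrank F W ≤ finrank F U := fun U h1 h2 _ => hWd ▸ Nat.find_min' hex ⟨U, h1, h2, rfl⟩
  let S : H → Submodule F (ι → F) := fun h => W.map (toLin' h.1.val)
  have hSinv : ∀ h : H, IsInvariantUnder N (S h) := by
    rintro ⟨h, hh⟩ x hx _ ⟨w, hw, rfl⟩
    refine ⟨(h⁻¹ * x * h).val *ᵥ w, hWinv _ ?_ _ hw, ?_⟩
    · simpa using hnorm h⁻¹ (inv_mem hh) x hx
    · simp [mulVec_mulVec, mul_assoc]
  have hStop : ⨆ h, S h = ⊤ := by
    have hinv : IsInvariantUnder H (⨆ h, S h) := by
      intro g hg v hv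
      have : (⨆ h, S h).map (toLin' g.val) ≤ ⨆ h, S h := by
        rw [Submodule.map_iSup]
        refine iSup_le fun h => le_trans (le_of_eq ?_) (le_iSup S ⟨g * h.1, mul_mem hg h.2⟩)
        simp only [S, Units.val_mul, toLin'_mul, Submodule.map_comp]
      exact this ⟨v, hv, by simp⟩
    refine (eq_bot_or_top_of_invariant hirr hinv).resolve_left fun h => hW0 ?_
    refine eq_bot_iff.mpr (le_trans ?_ (le_of_eq h))
    exact le_trans (by simp [S]) (le_iSup S ⟨1, one_mem H⟩)
  have hSrank : ∀ h, finrank F (S h) = finrank F W := fun h => finrank_map_gl h.1 W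
  have hd : finrank F W ∣ Fintype.card ι := by
    refine dvd_finrank_of_translates S hSrank hStop fun t h => ?_
    refine or_iff_not_imp_right.mpr fun hnd => ?_
    have hX : IsInvariantUnder N (⨆ b ∈ t, S b) := by
      intro x hx v hv
      have : (⨆ b ∈ t, S b).map (toLin' x.val) ≤ ⨆ b ∈ t, S b := by
        simp only [Submodule.map_iSup]
        exact iSup₂_mono fun b _ => (hSinv b).map_le _ ⟨x, hx, rfl⟩
      exact this ⟨v, hv, by simp⟩
    have hI : IsInvariantUnder N (S h ⊓ ⨆ b ∈ t, S b) := fun x hx v hv =>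
      ⟨hSinv h x hx v hv.1, hX x hx v hv.2⟩
    have hle := hmin _ hI (fun e => hnd (disjoint_iff.mpr e)) le_top
    have heq : S h ⊓ (⨆ b ∈ t, S b) = S h :=
      Submodule.eq_of_le_of_finrank_le inf_le_left (by rw [hSrank]; exact hle)
    exact heq.ge.trans inf_le_right
  have hlt : finrank F W < Fintype.card ι := by
    refine lt_of_le_of_lt (hmin W₁ hW₁ hW₁0 le_top) ?_
    rw [← finrank_pi F]
    exact Submodule.finrank_lt hW₁1
  have hd1 : finrank F W = 1 := (hp.eq_one_or_self_of_dvd _ hd).resolve_right hlt.ne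
  let E : Set (ι → F) := {v | IsCommonEigen N v}
  have hE : ⊤ ≤ Submodule.span F E := by
    rw [← hStop]
    refine iSup_le fun h v hv => Submodule.subset_span ?_
    intro x hx
    rcases eq_or_ne v 0 with rfl | hv0
    · exact ⟨0, by simp⟩
    obtain ⟨c, hc⟩ := (finrank_eq_one_iff_of_nonzero' (⟨v, hv⟩ : S h) (by simpa using hv0)).mp
      ((hSrank h).trans hd1) ⟨x.val *ᵥ v, hSinv h x hx v hv⟩
    exact ⟨c, (congrArg Subtype.val hc).symm⟩
  let b₀ := Basis.ofSpan hE
  have : Fintype ((linearIndepOn_empty F id).extend (Set.empty_subset E)) :=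
    FiniteDimensional.fintypeBasisIndex b₀
  have hcard := (finrank_eq_card_basis b₀).symm.trans (finrank_pi (ι := ι) F)
  let e := Fintype.equivOfCardEq hcard
  refine ⟨b₀.reindex e, fun i => ?_⟩
  rw [Basis.reindex_apply]
  exact Basis.ofSpan_subset hE ⟨_, rfl⟩

/-- The common eigenvector of the transported character. -/
lemma eigen_smul_of_conj {N : Subgroup (GL ι F)} {h x : GL ι F} {v : ι → F} {c : F}
    (hx : (h⁻¹ * x * h).val *ᵥ v = c • v) : x.val *ᵥ (h.val *ᵥ v) = c • (h.val *ᵥ v) := by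
  rw [← mulVec_smul, ← hx, mulVec_mulVec, mulVec_mulVec, ← Units.val_mul, ← Units.val_mul]
  simp [mul_assoc]

lemma monomial_of_eigenbasis {H N : Subgroup (GL ι F)} (hp : (Fintype.card ι).Prime)
    (hirr : Cfsg.Geo.ActsIrreducibly (Cfsg.Geo.matrixSet H))
    (hnorm : ∀ h ∈ H, ∀ x ∈ N, h * x * h⁻¹ ∈ N) (b : Basis ι F (ι → F))
    (hb : ∀ i, IsCommonEigen N (b i)) :
    N ≤ Cfsg.Geo.scalars ι F ∨
      ((∀ x ∈ N, ∀ y ∈ N, x * y = y * x) ∧ IsMonomial H b ∧ Separates N b) := by
  classical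
  have : Nonempty ι := Fintype.card_pos_iff.mp hp.pos
  choose χ hχ using fun (i : ι) (x : N) => hb i x.1 x.2
  have hrepr : ∀ (x : N) (v : ι → F) i, b.repr (x.1.val *ᵥ v) i = χ i x * b.repr v i := by
    intro x v i
    have hx : x.1.val *ᵥ v = ∑ j, (χ j x * b.repr v j) • b j := by
      conv_lhs => rw [← b.sum_repr v]
      rw [mulVec_sum]
      refine Finset.sum_congr rfl fun j _ => ?_
      rw [mulVec_smul, hχ j x, smul_smul, mul_comm]
    rw [hx, b.repr_sum_self]
  have hcoord : ∀ h ∈ H, ∀ i j, b.repr (h.val *ᵥ b i) j ≠ 0 →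
      ∀ x : GL ι F, ∀ hx : x ∈ N, ∀ hx' : h⁻¹ * x * h ∈ N, χ j ⟨x, hx⟩ = χ i ⟨_, hx'⟩ := by
    intro h _ i j hne x hx hx'
    have e := hrepr ⟨x, hx⟩ (h.val *ᵥ b i) j
    rw [eigen_smul_of_conj (N := N) (hχ i ⟨_, hx'⟩), map_smul, Finsupp.smul_apply,
      smul_eq_mul] at e
    exact (mul_right_cancel₀ hne e).symm
  have hfib : ∀ h ∈ H, ∀ i j, b.repr (h.val *ᵥ b i) j ≠ 0 →
      ∀ i', χ i' = χ i → ∀ j', b.repr (h.val *ᵥ b i') j' ≠ 0 → χ j' = χ j := by
    intro h hh i j hj i' hi' j' hj'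
    funext x
    have hx' : h⁻¹ * x.1 * h ∈ N := by simpa using hnorm h⁻¹ (inv_mem hh) x.1 x.2
    rw [hcoord h hh i j hj x.1 x.2 hx', hcoord h hh i' j' hj' x.1 x.2 hx', hi']
  have hreach : ∀ i k, ∃ h ∈ H, b.repr (h.val *ᵥ b i) k ≠ 0 := by
    intro i k
    by_contra! hcon
    have hinv : IsInvariantUnder H (Submodule.span F (Set.range fun h : H => h.1.val *ᵥ b i)) := by
      intro g hg v hv
      have : Submodule.map (toLin' g.val) (Submodule.span F (Set.range fun h : H => h.1.val *ᵥ b i))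
          ≤ Submodule.span F (Set.range fun h : H => h.1.val *ᵥ b i) := by
        rw [Submodule.map_span, Submodule.span_le]
        rintro _ ⟨_, ⟨h, rfl⟩, rfl⟩
        exact Submodule.subset_span ⟨⟨g * h.1, mul_mem hg h.2⟩, by simp [mulVec_mulVec]⟩
      exact this ⟨v, hv, by simp⟩
    rcases eq_bot_or_top_of_invariant hirr hinv with h | h
    · refine b.ne_zero i ((Submodule.mem_bot F).mp ?_)
      rw [← h]
      exact Submodule.subset_span ⟨1, by simp⟩
    · have hle : Submodule.span F (Set.range fun h : H => h.1.val *ᵥ b i) ≤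
          LinearMap.ker (b.coord k) := by
        rw [Submodule.span_le]
        rintro _ ⟨g, rfl⟩
        exact hcon g.1 g.2
      rw [h] at hle
      have := hle (Submodule.mem_top (x := b k))
      simp at this
  let fib : ι → Finset ι := fun i => Finset.univ.filter fun j => χ j = χ i
  have hmono : ∀ i k, (fib i).card ≤ (fib k).card := by
    intro i k
    obtain ⟨h, hh, hk⟩ := hreach i k
    have hli : LinearIndependent F fun a : fib i => h.val *ᵥ b a := by
      exact (b.linearIndependent.comp (Subtype.val : fib i → ι) Subtype.val_injective).map'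
        (toLin' h.val) (LinearMap.ker_eq_bot.mpr (by simpa using! mulVec_inj h))
    have hle : Submodule.span F (Set.range fun a : fib i => h.val *ᵥ b a) ≤
        Submodule.span F (b '' (fib k : Set ι)) := by
      rw [Submodule.span_le]
      rintro _ ⟨⟨a, ha⟩, rfl⟩
      rw [SetLike.mem_coe, b.mem_span_image]
      intro j hj
      simpa [fib] using hfib h hh i k hk a (by simpa [fib] using ha) j (by simpa using hj)
    have h1 := Submodule.finrank_mono hle
    rw [finrank_span_eq_card hli, Fintype.card_coe, Set.image_eq_range,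
      finrank_span_eq_card (show LinearIndependent F fun a : (fib k : Set ι) => b a from
        b.linearIndependent.comp _ Subtype.val_injective)] at h1
    simpa using h1
  obtain ⟨i₀⟩ := ‹Nonempty ι›
  have hm : ∀ i, (fib i).card = (fib i₀).card := fun i => le_antisymm (hmono i i₀) (hmono i₀ i)
  have hdvd : (fib i₀).card ∣ Fintype.card ι := by
    rw [← Finset.card_univ, Finset.card_eq_sum_card_image χ Finset.univ]
    refine Finset.dvd_sum fun c hc => ?_
    obtain ⟨i, -, rfl⟩ := Finset.mem_image.mp hc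
    exact (hm i).symm ▸ dvd_rfl
  rcases hp.eq_one_or_self_of_dvd _ hdvd with h1 | h1
  · right
    have hinj : ∀ i j, χ j = χ i → j = i := by
      intro i j hji
      obtain ⟨a, ha⟩ := Finset.card_eq_one.mp ((hm i).trans h1)
      have hi : i ∈ fib i := by simp [fib]
      have hj : j ∈ fib i := by simp [fib, hji]
      rw [ha, Finset.mem_singleton] at hi hj
      rw [hi, hj]
    refine ⟨fun x hx y hy => Units.ext <| Matrix.ext_iff_mulVec.mpr fun v => ?_, ?_,
      fun i j hij => (hinj i j (funext fun x => ?_)).symm⟩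
    · apply b.repr.injective
      ext i
      simp only [Units.val_mul, ← mulVec_mulVec, hrepr ⟨x, hx⟩, hrepr ⟨y, hy⟩]
      ring
    rotate_left
    · have e := (hij x.1 x.2 _ (hχ i x)).symm.trans (hχ j x)
      exact (smul_left_injective F (b.ne_zero j) e).symm
    intro h hh
    have hsupp : ∀ i, ∃ j, b.repr (h.val *ᵥ b i) j ≠ 0 := by
      intro i
      by_contra! hcon
      have : h.val *ᵥ b i = 0 := b.repr.injective (Finsupp.ext fun j => by simpa using hcon j)
      exact b.ne_zero i (mulVec_inj h (this.trans (mulVec_zero _).symm))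
    choose σ hσ using hsupp
    have hline : ∀ i, h.val *ᵥ b i = b.repr (h.val *ᵥ b i) (σ i) • b (σ i) := by
      intro i
      apply b.repr.injective
      ext j
      rw [map_smul, b.repr_self, Finsupp.smul_apply, Finsupp.single_apply]
      split
      · subst j; simp
      · rename_i hne
        rw [smul_zero]
        by_contra hj
        exact hne (hinj _ _ (hfib h hh i (σ i) (hσ i) i rfl j hj)).symm
    have hσinj : Function.Injective σ := by
      intro a a' haa
      have : b.repr (h.val *ᵥ b a') (σ a') • (h.val *ᵥ b a) =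
          b.repr (h.val *ᵥ b a) (σ a) • (h.val *ᵥ b a') := by
        conv_lhs => arg 2; rw [hline a]
        conv_rhs => arg 2; rw [hline a']
        rw [smul_smul, smul_smul, haa, mul_comm]
      rw [← mulVec_smul, ← mulVec_smul] at this
      have e := congrArg (fun v => b.repr v a) (mulVec_inj h this)
      simp only [map_smul, b.repr_self, Finsupp.smul_apply, Finsupp.single_apply, if_true,
        smul_eq_mul, mul_one] at e
      by_contra hne
      rw [if_neg (Ne.symm hne), mul_zero] at e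
      exact hσ a' e
    exact ⟨Equiv.ofBijective σ hσinj.bijective_of_finite, _, hline⟩
  · left
    intro x hx
    have hall : ∀ i, χ i = χ i₀ := by
      intro i
      have := (Finset.card_eq_iff_eq_univ _).mp h1
      have hi : i ∈ fib i₀ := this ▸ Finset.mem_univ i
      simpa [fib] using hi
    have hval : x.val = χ i₀ ⟨x, hx⟩ • (1 : Matrix ι ι F) := by
      refine Matrix.ext_iff_mulVec.mpr fun v => b.repr.injective (Finsupp.ext fun i => ?_)
      rw [hrepr ⟨x, hx⟩ v i, smul_mulVec, one_mulVec, map_smul, hall]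
      rfl
    have hc : χ i₀ ⟨x, hx⟩ ≠ 0 := fun e => by
      rw [e, zero_smul] at hval
      exact x.ne_zero hval
    exact (Cfsg.Geo.mem_scalars_iff x).mpr ⟨Units.mk0 _ hc, hval⟩

/-- Clifford's theorem for a normal subgroup of an irreducible group in prime dimension. -/
theorem prime_dim_normal_cases {H N : Subgroup (GL ι F)} [Finite F] (hp : (Fintype.card ι).Prime)
    (hirr : Cfsg.Geo.ActsIrreducibly (Cfsg.Geo.matrixSet H))
    (hnorm : ∀ h ∈ H, ∀ x ∈ N, h * x * h⁻¹ ∈ N) :
    N ≤ Cfsg.Geo.scalars ι F ∨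
    ((∀ x ∈ N, ∀ y ∈ N, x * y = y * x) ∧
      ((∃ b : Basis ι F (ι → F), IsMonomial H b ∧ (∀ i, IsCommonEigen N (b i)) ∧ Separates N b) ∨
       (Cfsg.Geo.IsFieldSubalgebra (Fintype.card ι) (commutant N) ∧
        H ≤ Cfsg.Geo.subalgebraNormalizer (commutant N) ∧
        ∀ x ∈ N, x.val ∈ commutant N))) ∨
    Cfsg.Geo.ActsAbsolutelyIrreducibly (Cfsg.Geo.matrixSet N) := by
  have : Nonempty ι := Fintype.card_pos_iff.mp hp.pos
  by_cases hN : Cfsg.Geo.ActsIrreducibly (Cfsg.Geo.matrixSet N)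
  · have hinv := fun M hM h0 => exists_inv_of_mem_commutant (M := M) hN hM h0
    rcases hp.eq_one_or_self_of_dvd _ (finrank_dvd_card hinv) with h | h
    · refine Or.inr (Or.inr ⟨hN, fun M hM => ?_⟩)
      have hMc : M ∈ commutant N :=
        mem_commutant.mpr fun x hx => (hM _ ⟨x, hx, rfl⟩).symm
      rw [Subalgebra.eq_bot_of_finrank_one h, Algebra.mem_bot] at hMc
      obtain ⟨c, rfl⟩ := hMc
      exact ⟨c, Algebra.algebraMap_eq_smul_one c⟩
    · have hK : Cfsg.Geo.IsFieldSubalgebra (Fintype.card ι) (commutant N) :=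
        ⟨commutant_comm hN, hinv, h⟩
      have hin : ∀ x ∈ N, x.val ∈ commutant N := fun x hx =>
        mem_of_forall_commute hK fun k hk => mem_commutant.mp hk x hx
      exact Or.inr (Or.inl ⟨fun x hx y hy => Units.ext (hK.comm _ (hin x hx) _ (hin y hy)),
        Or.inr ⟨hK, le_subalgebraNormalizer_commutant hnorm, hin⟩⟩)
  · obtain ⟨b, hb⟩ := exists_basis_eigen_of_reducible hp hirr hnorm hN
    rcases monomial_of_eigenbasis hp hirr hnorm b hb with h | ⟨hc, hm, hs⟩
    · exact Or.inl h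
    · exact Or.inr (Or.inl ⟨hc, Or.inl ⟨b, hm, hb, hs⟩⟩)

end CfsgLib.Aschbacher
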