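import Mathlib
import Cfsg.Agent.Aschbacher.CentreCases
import Cfsg.Agent.Aschbacher.Clifford

/-!
Subfields of prime degree of a field-like commutative subalgebra of the matrix algebra.
-/

set_option autoImplicit false
set_option linter.unusedSectionVars false

namespace CfsgLib.Aschbacher.Centre

open Matrix Cfsg Module

variable {ι : Type} [Fintype ι] [DecidableEq ι] {F : Type*} [Field F] [Fintype F]
variable {G : Subgroup (GL ι F)} {Z : Subalgebra F (Matrix ι ι F)}

theorem algebraMap_pow_card (c : F) :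
    (algebraMap F (Matrix ι ι F) c) ^ Fintype.card F = algebraMap F (Matrix ι ι F) c := by
  rw [← map_pow, FiniteField.pow_card]

theorem algebraMap_pow_card_pow (c : F) (r : ℕ) :
    (algebraMap F (Matrix ι ι F) c) ^ (Fintype.card F ^ r) = algebraMap F (Matrix ι ι F) c := by
  rw [← map_pow, FiniteField.pow_card_pow]

/-- The elements of a commutative subalgebra fixed by the `q ^ r` power map. -/
noncomputable def powFixed (Z : Subalgebra F (Matrix ι ι F))
    (hc : ∀ x ∈ Z, ∀ y ∈ Z, x * y = y * x) [Nonempty ι] (r : ℕ) :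
    Subalgebra F (Matrix ι ι F) where
  carrier := {x | x ∈ Z ∧ x ^ (Fintype.card F ^ r) = x}
  mul_mem' {a b} ha hb := ⟨Z.mul_mem ha.1 hb.1, by
    rw [(Commute.mul_pow (hc a ha.1 b hb.1) _), ha.2, hb.2]⟩
  one_mem' := ⟨Z.one_mem, one_pow _⟩
  add_mem' {a b} ha hb := ⟨Z.add_mem ha.1 hb.1, by
    obtain ⟨p, hp⟩ := CharP.exists F
    have hpp : p.Prime := CharP.char_is_prime F p
    have := Fact.mk hpp
    have : CharP (Matrix ι ι F) p := inferInstance
    obtain ⟨e, -, he⟩ := FiniteField.card F p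
    rw [he, ← pow_mul, add_pow_char_pow_of_commute (p := p) (h := hc a ha.1 b hb.1),
      pow_mul, ← he, ha.2, hb.2]⟩
  zero_mem' := ⟨Z.zero_mem, zero_pow (pow_ne_zero _ Fintype.card_ne_zero)⟩
  algebraMap_mem' c := ⟨Z.algebraMap_mem c, algebraMap_pow_card_pow c r⟩

theorem mem_powFixed {hc : ∀ x ∈ Z, ∀ y ∈ Z, x * y = y * x} [Nonempty ι] {r : ℕ}
    {x : Matrix ι ι F} :
    x ∈ powFixed Z hc r ↔ x ∈ Z ∧ x ^ (Fintype.card F ^ r) = x := Iff.rfl

theorem Normalises.powFixed (hN : Normalises G Z) (hc : ∀ x ∈ Z, ∀ y ∈ Z, x * y = y * x)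
    [Nonempty ι] (r : ℕ) : Normalises G (powFixed Z hc r) := by
  intro g hg a ha
  refine ⟨hN g hg a ha.1, ?_⟩
  rw [Units.conj_pow, ha.2]

variable [Nonempty ι]

/-- A field-like subalgebra of `F`-dimension `d` has subfields of every prime degree dividing `d`. -/
theorem isFieldSubalgebra_powFixed (hc : ∀ x ∈ Z, ∀ y ∈ Z, x * y = y * x) (hf : IsFieldLike Z)
    {r : ℕ} (hr : r ∣ finrank F Z) :
    Geo.IsFieldSubalgebra r (powFixed Z hc r) := by
  classical
  haveI : Nontrivial Z := ⟨⟨0, 1, fun h => zero_ne_one (congrArg Subtype.val h)⟩⟩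
  have hfield : IsField Z :=
    { exists_pair_ne := exists_pair_ne _
      mul_comm := fun a b => Subtype.ext (hc _ a.2 _ b.2)
      mul_inv_cancel := fun {a} ha => by
        obtain ⟨y, hy, hay⟩ := hf a.1 a.2 fun h => ha (Subtype.ext h)
        exact ⟨⟨y, hy⟩, Subtype.ext hay⟩ }
  letI := hfield.toField
  haveI : Finite Z := Finite.of_injective (fun x : Z => (x : Matrix ι ι F)) Subtype.val_injective
  have := Fintype.ofFinite Z
  set d := finrank F Z with hd
  set q := Fintype.card F with hq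
  have hcard : Nat.card Z = q ^ d := by
    rw [Module.natCard_eq_pow_finrank (K := F), Nat.card_eq_fintype_card]
  have hd0 : 0 < d := Module.finrank_pos
  have hr0 : 0 < r := Nat.pos_of_dvd_of_pos hr hd0
  have hq1 : 1 < q := Fintype.one_lt_card
  have hqr : 1 < q ^ r := Nat.one_lt_pow hr0.ne' hq1
  have hdvd : q ^ r - 1 ∣ Nat.card Zˣ := by
    rw [Nat.card_units, hcard]
    obtain ⟨k, hk⟩ := hr
    rw [hk, pow_mul]
    exact Nat.sub_one_dvd_pow_sub_one _ _
  have hker : Nat.card (powMonoidHom (q ^ r - 1) : Zˣ →* Zˣ).ker = q ^ r - 1 := by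
    rw [IsCyclic.card_powMonoidHom_ker, Nat.gcd_eq_right hdvd]
  have hmem : ∀ x : Z, (x : Matrix ι ι F) ∈ powFixed Z hc r ↔
      x = 0 ∨ ∃ u ∈ (powMonoidHom (q ^ r - 1) : Zˣ →* Zˣ).ker, (u : Z) = x := by
    intro x
    rw [mem_powFixed]
    constructor
    · rintro ⟨-, hx⟩
      by_cases h0 : x = 0
      · exact Or.inl h0
      · right
        refine ⟨Units.mk0 x h0, ?_, rfl⟩
        rw [MonoidHom.mem_ker, powMonoidHom_apply, Units.ext_iff, Units.val_pow_eq_pow_val,
          Units.val_one, Units.val_mk0]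
        refine mul_right_cancel₀ h0 ?_
        rw [← pow_succ, Nat.sub_add_cancel hqr.le, one_mul]
        exact Subtype.ext (by rw [SubmonoidClass.coe_pow]; exact hx)
    · rintro (rfl | ⟨u, hu, rfl⟩)
      · exact ⟨Subtype.mem _, by simp [zero_pow (pow_ne_zero r (by omega : q ≠ 0))]⟩
      · refine ⟨Subtype.mem _, ?_⟩
        rw [MonoidHom.mem_ker, powMonoidHom_apply, Units.ext_iff, Units.val_pow_eq_pow_val] at hu
        have hpow : (u : Z) ^ (q ^ r) = u := by
          rw [← Nat.sub_add_cancel hqr.le, pow_succ, hu, Units.val_one, one_mul]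
        exact (SubmonoidClass.coe_pow (u : Z) _).symm.trans (congrArg Subtype.val hpow)
  refine ⟨fun x hx y hy => hc x hx.1 y hy.1, ?_, ?_⟩
  · intro x hx hx0
    refine ⟨x ^ (q ^ r - 2), pow_mem hx _, ?_⟩
    rcases (hmem ⟨x, hx.1⟩).1 hx with h | ⟨u, hu, hux⟩
    · exact absurd (congrArg Subtype.val h) hx0
    · rw [← pow_succ', show q ^ r - 2 + 1 = q ^ r - 1 by omega]
      rw [MonoidHom.mem_ker, powMonoidHom_apply, Units.ext_iff, Units.val_pow_eq_pow_val, hux,
        Units.val_one] at hu
      exact (SubmonoidClass.coe_pow (⟨x, hx.1⟩ : Z) _).symm.trans (congrArg Subtype.val hu)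
  · have e : powFixed Z hc r ≃ Option (powMonoidHom (q ^ r - 1) : Zˣ →* Zˣ).ker :=
      { toFun := fun x => if h : (x : Matrix ι ι F) = 0 then none else
          some ⟨Units.mk0 ⟨x.1, x.2.1⟩ (fun h' => h (congrArg Subtype.val h')), by
            rcases (hmem ⟨x.1, x.2.1⟩).1 x.2 with h' | ⟨u, hu, hux⟩
            · exact absurd (congrArg Subtype.val h') h
            · convert hu
              exact Units.ext hux.symm⟩
        invFun := fun o => o.elim ⟨0, Subalgebra.zero_mem _⟩
          fun u => ⟨((u.1 : Z) : Matrix ι ι F), (hmem _).2 (Or.inr ⟨u.1, u.2, rfl⟩)⟩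
        left_inv := fun x => by
          by_cases h : (x : Matrix ι ι F) = 0
          · simp [h]; exact Subtype.ext h.symm
          · simp [h]
        right_inv := fun o => by
          rcases o with _ | u
          · simp
          · have : ((u.1 : Z) : Matrix ι ι F) ≠ 0 := fun h => u.1.ne_zero (Subtype.ext h)
            simp [this] }
    have h1 : Nat.card (powFixed Z hc r) = q ^ r := by
      rw [Nat.card_congr e, Finite.card_option, hker]
      omega
    rw [Module.natCard_eq_pow_finrank (K := F), Nat.card_eq_fintype_card] at h1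
    exact Nat.pow_right_injective hq1 h1

/-- A field-like normalised subalgebra of degree greater than one gives a normalised subfield of
prime degree dividing the dimension. -/
theorem exists_prime_subfield (hN : Normalises G Z) (hc : ∀ x ∈ Z, ∀ y ∈ Z, x * y = y * x)
    (hf : IsFieldLike Z) (hbot : Z ≠ ⊥) :
    ∃ r, r.Prime ∧ r ∣ Fintype.card ι ∧ r ∣ finrank F Z ∧
      Geo.IsFieldSubalgebra r (powFixed Z hc r) ∧
      G ≤ Geo.subalgebraNormalizer (powFixed Z hc r) := by
  have hne : finrank F Z ≠ 1 := fun h => hbot (Subalgebra.eq_bot_of_finrank_one h)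
  obtain ⟨r, hr, hrd⟩ := Nat.exists_prime_and_dvd hne
  refine ⟨r, hr, hrd.trans ?_, hrd, isFieldSubalgebra_powFixed hc hf hrd,
    (hN.powFixed hc r).le_normalizer⟩
  exact CfsgLib.Aschbacher.finrank_dvd_card hf

end CfsgLib.Aschbacher.Centre
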