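import Cfsg.Agent.Aschbacher.Clifford

/-!
Invariant forms of an absolutely irreducible group are unique up to a scalar, and an absolutely
irreducible group realised over a subfield has its normaliser in the corresponding subfield group.
-/

set_option autoImplicit false

namespace CfsgLib.Aschbacher

open Matrix Module
open scoped MatrixGroups

variable {ι : Type} [Fintype ι] [DecidableEq ι] {F : Type*} [Field F]

/-- Linear in the first argument, `σ`-semilinear in the second. -/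
structure IsSesquiForm (σ : F →+* F) (f : (ι → F) → (ι → F) → F) : Prop where
  add_left : ∀ x y v, f (x + y) v = f x v + f y v
  smul_left : ∀ (c : F) (x v : ι → F), f (c • x) v = c * f x v
  add_right : ∀ v x y, f v (x + y) = f v x + f v y
  smul_right : ∀ (c : F) (v x : ι → F), f v (c • x) = σ c * f v x

lemma IsSesquiForm.of_bilinear {f : (ι → F) → (ι → F) → F} (h : Cfsg.Geo.IsBilinearForm f) :
    IsSesquiForm (RingHom.id F) f :=
  ⟨h.add_left, h.smul_left, h.add_right, h.smul_right⟩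

lemma IsSesquiForm.of_unitary {σ : F ≃+* F} {f : (ι → F) → (ι → F) → F}
    (h : Cfsg.Geo.IsUnitaryForm σ f) : IsSesquiForm σ.toRingHom f where
  add_left := h.add_left
  smul_left := h.smul_left
  add_right v x y := by rw [h.herm, h.add_left, map_add, ← h.herm, ← h.herm]
  smul_right c v x := by
    rw [h.herm, h.smul_left, map_mul, ← h.herm]; rfl

lemma IsSesquiForm.zero_right {σ : F →+* F} {f : (ι → F) → (ι → F) → F} (h : IsSesquiForm σ f)
    (v : ι → F) : f v 0 = 0 := by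
  simpa using h.smul_right 0 v 0

lemma IsSesquiForm.zero_left {σ : F →+* F} {f : (ι → F) → (ι → F) → F} (h : IsSesquiForm σ f)
    (v : ι → F) : f 0 v = 0 := by
  simpa using h.smul_left 0 0 v

lemma IsSesquiForm.sum_left {σ : F →+* F} {f : (ι → F) → (ι → F) → F} (h : IsSesquiForm σ f)
    {α : Type*} (s : Finset α) (g : α → ι → F) (v : ι → F) :
    f (∑ a ∈ s, g a) v = ∑ a ∈ s, f (g a) v :=
  map_sum (AddMonoidHom.mk' (fun x => f x v) (fun x y => h.add_left x y v)) g s

lemma IsSesquiForm.sum_right {σ : F →+* F} {f : (ι → F) → (ι → F) → F} (h : IsSesquiForm σ f)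
    {α : Type*} (s : Finset α) (g : α → ι → F) (v : ι → F) :
    f v (∑ a ∈ s, g a) = ∑ a ∈ s, f v (g a) :=
  map_sum (AddMonoidHom.mk' (fun x => f v x) (h.add_right v)) g s

lemma IsSesquiForm.eq_dot {σ : F →+* F} {f : (ι → F) → (ι → F) → F} (h : IsSesquiForm σ f)
    (u v : ι → F) : f u v = u ⬝ᵥ (Cfsg.Geo.gramMatrix f *ᵥ fun b => σ (v b)) := by
  conv_lhs => rw [pi_eq_sum_univ' u, pi_eq_sum_univ' v]
  rw [h.sum_left, dotProduct]
  refine Finset.sum_congr rfl fun a _ => ?_
  rw [h.smul_left, h.sum_right]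
  congr 1
  rw [mulVec, dotProduct]
  refine Finset.sum_congr rfl fun b _ => ?_
  rw [h.smul_right, mul_comm, Cfsg.Geo.gramMatrix]

lemma det_gramMatrix_ne_zero {σ : F →+* F} {f : (ι → F) → (ι → F) → F} (h : IsSesquiForm σ f)
    (hnd : Cfsg.Geo.IsNondegenerateForm f) : (Cfsg.Geo.gramMatrix f).det ≠ 0 := by
  intro hdet
  obtain ⟨v, hv, hv0⟩ := exists_vecMul_eq_zero_iff.mpr hdet
  obtain ⟨x, hx⟩ := (hnd v hv).2
  exact hx (by rw [h.eq_dot, dotProduct_mulVec, hv0, zero_dotProduct])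

lemma gramMatrix_of_fixes {σ : F →+* F} {f : (ι → F) → (ι → F) → F} (h : IsSesquiForm σ f)
    {s : Matrix ι ι F} (hs : ∀ u v, f (s *ᵥ u) (s *ᵥ v) = f u v) :
    sᵀ * (Cfsg.Geo.gramMatrix f * s.map σ) = Cfsg.Geo.gramMatrix f := by
  ext a b
  have := hs (Pi.single a 1) (Pi.single b 1)
  rw [h.eq_dot, mulVec_single_one, mulVec_single_one] at this
  rw [show Cfsg.Geo.gramMatrix f a b = f (Pi.single a 1) (Pi.single b 1) from rfl, ← this]
  rfl

/-- Invariant forms of an absolutely irreducible set of matrices are proportional. -/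
lemma exists_eq_mul_of_fixes {σ : F →+* F} {f f' : (ι → F) → (ι → F) → F} {S : Set (Matrix ι ι F)}
    (hS : Cfsg.Geo.ActsAbsolutelyIrreducibly S) (hf : IsSesquiForm σ f) (hf' : IsSesquiForm σ f')
    (hnd : Cfsg.Geo.IsNondegenerateForm f) (hfix : Cfsg.Geo.FixesForm S f)
    (hfix' : Cfsg.Geo.FixesForm S f') : ∃ c : F, ∀ u v, f' u v = c * f u v := by
  set G := Cfsg.Geo.gramMatrix f with hG
  set G' := Cfsg.Geo.gramMatrix f' with hG'
  have hu : IsUnit G.det := isUnit_iff_ne_zero.mpr (det_gramMatrix_ne_zero hf hnd)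
  have hcomm : ∀ s ∈ S, (G' * G⁻¹)ᵀ * s = s * (G' * G⁻¹)ᵀ := by
    intro s hs
    have e := gramMatrix_of_fixes hf (hfix s hs)
    have e' := gramMatrix_of_fixes hf' (hfix' s hs)
    rw [← hG] at e
    rw [← hG'] at e'
    have hunit : IsUnit (G * s.map σ) := by
      rw [isUnit_iff_isUnit_det, isUnit_iff_ne_zero]
      intro h0
      apply hu.ne_zero
      rw [← e, det_mul, h0, mul_zero]
    have key : sᵀ * (G' * G⁻¹) = G' * G⁻¹ * sᵀ := by
      refine hunit.mul_right_cancel ?_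
      calc sᵀ * (G' * G⁻¹) * (G * s.map σ)
          = sᵀ * (G' * s.map σ) := by
            rw [Matrix.mul_assoc sᵀ, Matrix.mul_assoc G', ← Matrix.mul_assoc G⁻¹,
              nonsing_inv_mul G hu, Matrix.one_mul]
        _ = G' * G⁻¹ * G := by rw [e', Matrix.mul_assoc, nonsing_inv_mul G hu, Matrix.mul_one]
        _ = G' * G⁻¹ * sᵀ * (G * s.map σ) := by rw [Matrix.mul_assoc (G' * G⁻¹) sᵀ, e]
    simpa [transpose_mul] using (congrArg transpose key)
  obtain ⟨c, hc⟩ := hS.2 _ hcomm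
  have hGc : G' = c • G := by
    have := congrArg transpose hc
    rw [transpose_transpose, transpose_smul, transpose_one] at this
    calc G' = G' * G⁻¹ * G := by rw [Matrix.mul_assoc, nonsing_inv_mul G hu, Matrix.mul_one]
      _ = c • G := by rw [this, Matrix.smul_mul, Matrix.one_mul]
  refine ⟨c, fun u v => ?_⟩
  rw [hf'.eq_dot, hf.eq_dot, ← hG, ← hG', hGc, smul_mulVec, dotProduct_smul, smul_eq_mul]

/-- If `H` normalises an absolutely irreducible group fixing a non-degenerate form then `H`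
consists of similarities. -/
lemma le_similarityGroup_of_normalizes [Nonempty ι] {σ : F →+* F} {f : (ι → F) → (ι → F) → F}
    {H P : Subgroup (GL ι F)} (hP : Cfsg.Geo.ActsAbsolutelyIrreducibly (Cfsg.Geo.matrixSet P))
    (hnorm : ∀ h ∈ H, ∀ x ∈ P, h * x * h⁻¹ ∈ P) (hf : IsSesquiForm σ f)
    (hnd : Cfsg.Geo.IsNondegenerateForm f)
    (hfix : Cfsg.Geo.FixesForm (Cfsg.Geo.matrixSet P) f) :
    H ≤ Cfsg.Geo.similarityGroup f := by
  intro h hh
  let f' : (ι → F) → (ι → F) → F := fun u v => f (h.val *ᵥ u) (h.val *ᵥ v)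
  have hf' : IsSesquiForm σ f' :=
    ⟨fun x y v => by simp [f', mulVec_add, hf.add_left],
      fun c x v => by simp [f', mulVec_smul, hf.smul_left],
      fun v x y => by simp [f', mulVec_add, hf.add_right],
      fun c v x => by simp [f', mulVec_smul, hf.smul_right]⟩
  have hfix' : Cfsg.Geo.FixesForm (Cfsg.Geo.matrixSet P) f' := by
    rintro _ ⟨x, hx, rfl⟩ u v
    have := hfix _ ⟨_, hnorm h hh x hx, rfl⟩ (h.val *ᵥ u) (h.val *ᵥ v)
    simpa [f', mulVec_mulVec, mul_assoc] using this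
  obtain ⟨c, hc⟩ := exists_eq_mul_of_fixes hP hf hf' hnd hfix hfix'
  have hc0 : c ≠ 0 := by
    rintro rfl
    obtain ⟨v, x, hvx⟩ := IsNondegenerateForm.exists_ne Fintype.card_pos hnd
    apply hvx
    have := hc ((h⁻¹).val *ᵥ v) ((h⁻¹).val *ᵥ x)
    simpa [f', mulVec_inv_mulVec] using this
  exact ⟨Units.mk0 c hc0, hc⟩

lemma polar_fixes {S : Set (Matrix ι ι F)} {Q : (ι → F) → F} (h : Cfsg.Geo.FixesQuadForm S Q) :
    Cfsg.Geo.FixesForm S (QuadraticMap.polar Q) := by
  intro s hs u v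
  simp only [QuadraticMap.polar, ← mulVec_add, h s hs]

lemma polar_self {Q : (ι → F) → F} (hQ : Cfsg.Geo.IsNondegenerateQuadraticForm Q) (v : ι → F) :
    QuadraticMap.polar Q v v = 2 * Q v := by
  have : v + v = (2 : F) • v := (two_smul F v).symm
  rw [QuadraticMap.polar, this, hQ.smul]; ring

/-- The quadratic analogue of `le_similarityGroup_of_normalizes`. -/
lemma le_quadSimilarityGroup_of_normalizes [Nonempty ι] (h2 : (2 : F) ≠ 0) {Q : (ι → F) → F}
    {H P : Subgroup (GL ι F)} (hP : Cfsg.Geo.ActsAbsolutelyIrreducibly (Cfsg.Geo.matrixSet P))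
    (hnorm : ∀ h ∈ H, ∀ x ∈ P, h * x * h⁻¹ ∈ P) (hQ : Cfsg.Geo.IsNondegenerateQuadraticForm Q)
    (hfix : Cfsg.Geo.FixesQuadForm (Cfsg.Geo.matrixSet P) Q) :
    H ≤ Cfsg.Geo.quadSimilarityGroup Q := by
  intro h hh
  obtain ⟨c, hc⟩ := le_similarityGroup_of_normalizes hP hnorm
    (IsSesquiForm.of_bilinear hQ.polar_bilinear) hQ.nondegenerate (polar_fixes hfix) hh
  refine ⟨c, fun v => ?_⟩
  have := hc v v
  rw [polar_self hQ, polar_self hQ, mul_left_comm] at this
  exact mul_left_cancel₀ h2 this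

/-- In odd dimension an alternating matrix is singular. -/
lemma det_eq_zero_of_alternating (hodd : Odd (Fintype.card ι)) {G : Matrix ι ι F}
    (hskew : ∀ a b, G a b = - G b a) (hdiag : ∀ a, G a a = 0) : G.det = 0 := by
  classical
  rw [det_apply']
  refine Finset.sum_involution (fun σ _ => σ⁻¹) (fun σ _ => ?_) (fun σ _ hne heq => ?_)
    (fun _ _ => Finset.mem_univ _) (fun σ _ => inv_inv σ)
  · have : ∏ i, G (σ⁻¹ i) i = - ∏ i, G (σ i) i := by
      rw [← Equiv.prod_comp σ (fun i => G (σ⁻¹ i) i)]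
      simp only [Equiv.Perm.inv_def, Equiv.symm_apply_apply]
      rw [Finset.prod_congr rfl fun i _ => hskew i (σ i), Finset.prod_neg]
      simp [Finset.card_univ, hodd.neg_one_pow]
    rw [Equiv.Perm.sign_inv, this]
    ring
  · have hsq : σ ^ 2 ^ 1 = 1 := by
      rw [pow_one, sq]
      exact mul_eq_one_iff_eq_inv.mpr heq.symm
    obtain ⟨a, ha⟩ := Equiv.Perm.exists_fixed_point_of_prime (p := 2)
      (by rw [← even_iff_two_dvd, Nat.not_even_iff_odd]; exact hodd) hsq
    exact hne (by rw [Finset.prod_eq_zero (Finset.mem_univ a) (by rw [ha]; exact hdiag a), mul_zero])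

lemma not_isSymplecticForm (hodd : Odd (Fintype.card ι)) (f : (ι → F) → (ι → F) → F) :
    ¬ Cfsg.Geo.IsSymplecticForm f := fun hf =>
  det_gramMatrix_ne_zero (IsSesquiForm.of_bilinear hf.bilinear) hf.nondegenerate
    (det_eq_zero_of_alternating hodd (fun _ _ => hf.skew _ _) fun _ => hf.alternating _)

lemma two_ne_zero_of_quad (hodd : Odd (Fintype.card ι)) {Q : (ι → F) → F}
    (hQ : Cfsg.Geo.IsNondegenerateQuadraticForm Q) : (2 : F) ≠ 0 := by
  intro h2
  have hneg : (-1 : F) = 1 := by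
    rw [neg_eq_iff_add_eq_zero, one_add_one_eq_two, h2]
  refine not_isSymplecticForm hodd (QuadraticMap.polar Q)
    ⟨hQ.polar_bilinear, fun v w => ?_, fun v => by rw [polar_self hQ, h2, zero_mul],
      hQ.nondegenerate⟩
  rw [← neg_one_mul, hneg, one_mul, QuadraticMap.polar_comm]

lemma odd_card_of_two_ne_zero [Fintype F] (h2 : (2 : F) ≠ 0) : Odd (Fintype.card F) := by
  rw [Nat.odd_iff]
  refine FiniteField.odd_card_of_char_ne_two fun h => h2 ?_
  have : CharP F 2 := h ▸ ringChar.charP F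
  exact CharTwo.two_eq_zero

lemma two_ne_zero_of_odd_card [Fintype F] (h : Odd (Fintype.card F)) : (2 : F) ≠ 0 := by
  refine Ring.two_ne_zero fun h' => ?_
  have := FiniteField.even_card_iff_char_two.mp h'
  rw [Nat.odd_iff] at h
  omega

/-- Normalisers of absolutely irreducible groups realised over a subfield. -/
theorem le_subfieldSubgroup_of_realisable [Nonempty ι] {F₀ : Subfield F} {H P : Subgroup (GL ι F)}
    (hP : Cfsg.Geo.ActsAbsolutelyIrreducibly (Cfsg.Geo.matrixSet P))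
    (hnorm : ∀ h ∈ H, ∀ x ∈ P, h * x * h⁻¹ ∈ P) {B : GL ι F}
    (hB : ∀ s ∈ Cfsg.Geo.matrixSet P, ∀ i j, (B.val * s * (B⁻¹ : GL ι F).val) i j ∈ F₀) :
    H ≤ Cfsg.Geo.subfieldSubgroup F₀ B⁻¹ := by
  intro h hh
  obtain ⟨d, hd⟩ := Module.Projective.exists_dual_eq_one F₀ (one_ne_zero (α := F))
  let π : F →+ F := (F₀.subtype : F₀ →+* F).toAddMonoidHom.comp d.toAddMonoidHom
  have hπ : ∀ x, π x ∈ F₀ := fun x => (d x).2
  have hπ1 : π 1 = 1 := by simp [π, hd]
  have hπr : ∀ x y : F, y ∈ F₀ → π (x * y) = π x * y := by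
    intro x y hy
    have : x * y = (⟨y, hy⟩ : F₀) • x := by rw [mul_comm]; rfl
    show ((d (x * y) : F₀) : F) = (d x : F) * y
    rw [this, map_smul]
    exact mul_comm _ _
  have hπl : ∀ x y : F, y ∈ F₀ → π (y * x) = y * π x := fun x y hy => by
    rw [mul_comm, hπr x y hy, mul_comm]
  set X : GL ι F := B * h * B⁻¹ with hX
  have hXne : ∃ i j, X.val i j ≠ 0 := by
    by_contra! hcon
    exact X.ne_zero (Matrix.ext hcon)
  obtain ⟨i, j, hij⟩ := hXne
  set c := X.val i j with hc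
  let Y : Matrix ι ι F := fun a b => π (c⁻¹ * X.val a b)
  have key : ∀ S T : Matrix ι ι F, (∀ a b, S a b ∈ F₀) → (∀ a b, T a b ∈ F₀) →
      X.val * S = T * X.val → Y * S = T * Y := by
    intro S T hs ht e
    ext a b
    have e' := congrArg π (congrArg (c⁻¹ * ·) (congrFun (congrFun e a) b))
    simp only [Matrix.mul_apply, Finset.mul_sum, map_sum] at e'
    rw [Matrix.mul_apply, Matrix.mul_apply]
    convert e' using 2 with k _ k _
    · rw [← mul_assoc c⁻¹, hπr _ _ (hs k b)]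
    · rw [mul_left_comm, hπl _ _ (ht a k)]
  have hcomm : ∀ x ∈ P, Y * (B.val * x.val * (B⁻¹ : GL ι F).val) =
      (B.val * (h * x * h⁻¹).val * (B⁻¹ : GL ι F).val) * Y := by
    intro x hx
    have hs := hB _ ⟨x, hx, rfl⟩
    have ht := hB _ ⟨_, hnorm h hh x hx, rfl⟩
    have e : X.val * (B.val * x.val * (B⁻¹ : GL ι F).val) =
        (B.val * (h * x * h⁻¹).val * (B⁻¹ : GL ι F).val) * X.val := by
      simp [hX, mul_assoc]
    exact key _ _ hs ht e
  have hZ : ∀ s ∈ Cfsg.Geo.matrixSet P,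
      ((B⁻¹ : GL ι F).val * ((X⁻¹ : GL ι F).val * Y) * B.val) * s =
        s * ((B⁻¹ : GL ι F).val * ((X⁻¹ : GL ι F).val * Y) * B.val) := by
    rintro _ ⟨x, hx, rfl⟩
    have e := hcomm x hx
    have e2 := congrArg (fun M => (B⁻¹ : GL ι F).val * ((X⁻¹ : GL ι F).val * M) * B.val) e
    simp only [hX] at e2 ⊢
    simp [mul_assoc] at e2 ⊢
    exact e2
  obtain ⟨a, ha⟩ := hP.2 _ hZ
  have hY : Y = a • X.val := by
    calc Y = X.val * (B.val * ((B⁻¹ : GL ι F).val * ((X⁻¹ : GL ι F).val * Y) * B.val) *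
          (B⁻¹ : GL ι F).val) := by simp [mul_assoc]
      _ = a • X.val := by rw [ha]; simp [Matrix.mul_smul, Matrix.smul_mul]
  have ha1 : a = c⁻¹ := by
    refine eq_inv_of_mul_eq_one_left ?_
    have := congrFun (congrFun hY i) j
    rw [Matrix.smul_apply, smul_eq_mul, ← hc] at this
    rw [← this]
    show π (c⁻¹ * c) = 1
    rw [inv_mul_cancel₀ hij, hπ1]
  let X₀ : Matrix ι ι F₀ := fun a b => ⟨Y a b, hπ _⟩
  have hmap : X₀.map F₀.subtype = c⁻¹ • X.val := by rw [← ha1, ← hY]; rfl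
  have hdet : X₀.det ≠ 0 := by
    intro h0
    have := RingHom.map_det F₀.subtype X₀
    rw [h0, map_zero, RingHom.mapMatrix_apply, hmap, det_smul] at this
    exact mul_ne_zero (pow_ne_zero _ (inv_ne_zero hij))
      (((isUnit_iff_isUnit_det _).mp X.isUnit).ne_zero) this.symm
  let g₀ : GL ι F₀ := GeneralLinearGroup.mkOfDetNeZero X₀ hdet
  refine Subgroup.mem_map.mpr ⟨X, ?_, by simp [hX, MulAut.conj, mul_assoc]⟩
  let z : GL ι F := Units.map (Matrix.scalar ι : F →+* Matrix ι ι F).toMonoidHom (Units.mk0 c hij)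
  have hXeq : X = GeneralLinearGroup.map (F₀.subtype : F₀ →+* F) g₀ * z := by
    refine Units.ext ?_
    have hg : (GeneralLinearGroup.map (F₀.subtype : F₀ →+* F) g₀).val = c⁻¹ • X.val := hmap
    have hz : z.val = c • (1 : Matrix ι ι F) := by simp [z, smul_one_eq_diagonal]
    show X.val = (GeneralLinearGroup.map (F₀.subtype : F₀ →+* F) g₀).val * z.val
    rw [hg, hz, Matrix.mul_smul, mul_one, smul_smul, mul_inv_cancel₀ hij, one_smul]
  rw [hXeq]
  exact mul_mem (Subgroup.mem_sup_left ⟨g₀, rfl⟩) (Subgroup.mem_sup_right ⟨_, rfl⟩)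

/-- A proper subfield of a finite field lies in one of prime index. -/
theorem exists_subfield_prime_index [Fintype F] {F₀ : Subfield F} (h0 : F₀ ≠ ⊤) :
    ∃ (F₁ : Subfield F) (r : ℕ), F₀ ≤ F₁ ∧ r.Prime ∧ Fintype.card F = Nat.card F₁ ^ r ∧
      F₁ ≠ ⊤ := by
  classical
  have hgt : 1 < Nat.card (F ≃ₐ[F₀] F) := by
    rw [IsGalois.card_aut_eq_finrank]
    by_contra! hle
    have : finrank F₀ F = 1 := le_antisymm hle finrank_pos
    refine h0 (eq_top_iff.mpr fun x _ => ?_)
    obtain ⟨c, hc⟩ := (finrank_eq_one_iff_of_nonzero' (1 : F) one_ne_zero).mp this x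
    rw [← hc]
    exact F₀.mul_mem c.2 F₀.one_mem
  obtain ⟨r, hr, hrd⟩ := Nat.exists_prime_and_dvd hgt.ne'
  have := Fact.mk hr
  obtain ⟨g, hg⟩ := exists_prime_orderOf_dvd_card' r hrd
  let L := IntermediateField.fixedField (Subgroup.zpowers g)
  have hL : finrank L F = r := by
    rw [IntermediateField.finrank_fixedField_eq_card, Nat.card_zpowers, hg]
  refine ⟨L.toSubfield, r, fun x hx => L.algebraMap_mem ⟨x, hx⟩, hr, ?_, fun htop => ?_⟩
  · rw [← Nat.card_eq_fintype_card, Module.natCard_eq_pow_finrank (K := L) (V := F), hL]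
    rfl
  · have hcard : Nat.card L = Nat.card F :=
      Nat.card_congr (Equiv.subtypeUnivEquiv fun x =>
        show x ∈ L.toSubfield by rw [htop]; trivial)
    have := Module.natCard_eq_pow_finrank (K := L) (V := F)
    rw [hL, hcard] at this
    have h2 : 1 < Nat.card F := Finite.one_lt_card
    exact absurd this (lt_self_pow₀ h2 hr.two_le).ne

end CfsgLib.Aschbacher
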