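import Mathlib
import Cfsg.Agent.Aschbacher.CentreCases
import Cfsg.Agent.Aschbacher.InvariantForms

/-!
Adjoints of matrices relative to a reflexive sesquilinear form, subalgebras closed under adjoints, and
frames of idempotents compatible with the form.
-/

set_option autoImplicit false
set_option linter.unusedSectionVars false

namespace CfsgLib.Aschbacher.Forms

open Matrix Cfsg CfsgLib.Aschbacher.Centre

variable {ι : Type} [Fintype ι] [DecidableEq ι] {F : Type*} [Field F]

/-- A non-degenerate reflexive sesquilinear form: `f v w = ε * σ (f w v)`, `σ` an involution. -/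
structure RForm (σ : F →+* F) (ε : F) (f : (ι → F) → (ι → F) → F) : Prop where
  sesq : CfsgLib.Aschbacher.IsSesquiForm σ f
  refl : ∀ v w, f v w = ε * σ (f w v)
  nondeg : Geo.IsNondegenerateForm f
  invol : ∀ a, σ (σ a) = a

variable {σ : F →+* F} {ε : F} {f : (ι → F) → (ι → F) → F}

theorem rform_of_symplectic (h : Geo.IsSymplecticForm f) : RForm (RingHom.id F) (-1) f where
  sesq := .of_bilinear h.bilinear
  refl v w := by rw [h.skew]; simp
  nondeg := h.nondegenerate
  invol _ := rfl

theorem rform_of_symmetric (h : Geo.IsSymmetricForm f) : RForm (RingHom.id F) 1 f where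
  sesq := .of_bilinear h.bilinear
  refl v w := by rw [h.symm]; simp
  nondeg := h.nondegenerate
  invol _ := rfl

theorem rform_of_unitary {τ : F ≃+* F} (h : Geo.IsUnitaryForm τ f) : RForm τ.toRingHom 1 f where
  sesq := .of_unitary h
  refl v w := by rw [h.herm]; simp
  nondeg := h.nondegenerate
  invol := h.involutive

theorem RForm.eps_mul (hf : RForm σ ε f) {v w : ι → F} (h : f v w ≠ 0) : ε * σ ε = 1 := by
  have h1 : f v w = ε * σ ε * f v w := by
    conv_lhs => rw [hf.refl v w, hf.refl w v, map_mul, hf.invol]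
    ring
  exact (mul_right_eq_self₀.1 (by rw [mul_comm] at h1; exact h1.symm)).resolve_right h

theorem RForm.zero_left (hf : RForm σ ε f) (v : ι → F) : f 0 v = 0 := hf.sesq.zero_left v

theorem RForm.zero_right (hf : RForm σ ε f) (v : ι → F) : f v 0 = 0 := hf.sesq.zero_right v

theorem RForm.eq_zero_comm (hf : RForm σ ε f) {v w : ι → F} (h : f v w = 0) : f w v = 0 := by
  rw [hf.refl, h, map_zero, mul_zero]

theorem RForm.ext_right (hf : RForm σ ε f) {v w : ι → F} (h : ∀ u, f u v = f u w) : v = w := by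
  by_contra hne
  obtain ⟨u, hu⟩ := (hf.nondeg (v - w) (sub_ne_zero.2 hne)).1
  apply hu
  have : f u ((v - w) + w) = f u (v - w) + f u w := hf.sesq.add_right _ _ _
  rw [sub_add_cancel, h u] at this
  linear_combination -this

/-- `Y` is the adjoint of `X`. -/
def IsAdj (f : (ι → F) → (ι → F) → F) (X Y : Matrix ι ι F) : Prop :=
  ∀ u v, f (X *ᵥ u) v = f u (Y *ᵥ v)

theorem IsAdj.unique (hf : RForm σ ε f) {X Y Y' : Matrix ι ι F} (h : IsAdj f X Y) (h' : IsAdj f X Y') :
    Y = Y' :=
  Matrix.ext_iff_mulVec.2 fun v => hf.ext_right fun u => by rw [← h u v, ← h' u v]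

theorem IsAdj.symm (hf : RForm σ ε f) {X Y : Matrix ι ι F} (h : IsAdj f X Y) : IsAdj f Y X := by
  intro u v
  rw [hf.refl, ← h v u, ← hf.refl]

theorem IsAdj.unique_left (hf : RForm σ ε f) {X X' Y : Matrix ι ι F} (h : IsAdj f X Y)
    (h' : IsAdj f X' Y) : X = X' :=
  IsAdj.unique hf (h.symm hf) (h'.symm hf)

theorem IsAdj.add (hf : RForm σ ε f) {X X' Y Y' : Matrix ι ι F} (h : IsAdj f X Y)
    (h' : IsAdj f X' Y') : IsAdj f (X + X') (Y + Y') := by
  intro u v
  rw [Matrix.add_mulVec, Matrix.add_mulVec, hf.sesq.add_left, hf.sesq.add_right, h, h']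

theorem IsAdj.mul {X X' Y Y' : Matrix ι ι F} (h : IsAdj f X Y)
    (h' : IsAdj f X' Y') : IsAdj f (X * X') (Y' * Y) := by
  intro u v
  rw [← Matrix.mulVec_mulVec, ← Matrix.mulVec_mulVec, h, h']

theorem IsAdj.pow {X Y : Matrix ι ι F} (h : IsAdj f X Y) (n : ℕ) : IsAdj f (X ^ n) (Y ^ n) := by
  induction n with
  | zero => intro u v; simp
  | succ n ih => rw [pow_succ, pow_succ']; exact ih.mul h

theorem isAdj_one : IsAdj f 1 1 := fun u v => by simp

theorem isAdj_algebraMap (hf : RForm σ ε f) (c : F) :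
    IsAdj f (algebraMap F (Matrix ι ι F) c) (algebraMap F (Matrix ι ι F) (σ c)) := by
  intro u v
  simp only [Algebra.algebraMap_eq_smul_one, Matrix.smul_mulVec, Matrix.one_mulVec]
  rw [hf.sesq.smul_left, hf.sesq.smul_right, hf.invol]

theorem isAdj_zero (hf : RForm σ ε f) : IsAdj f (0 : Matrix ι ι F) 0 := by
  intro u v
  simp [hf.zero_left, hf.zero_right]

theorem IsAdj.ne_zero (hf : RForm σ ε f) {X Y : Matrix ι ι F} (h : IsAdj f X Y) (hX : X ≠ 0) :
    Y ≠ 0 := fun hY => hX (IsAdj.unique_left hf (hY ▸ h) (isAdj_zero hf))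

/-- An isometry's adjoint is its inverse. -/
theorem isAdj_of_isometry {g : GL ι F}
    (h : ∀ u v, f ((g : Matrix ι ι F) *ᵥ u) ((g : Matrix ι ι F) *ᵥ v) = f u v) :
    IsAdj f (g : Matrix ι ι F) ((g⁻¹ : GL ι F) : Matrix ι ι F) := by
  intro u v
  rw [← h u (((g⁻¹ : GL ι F) : Matrix ι ι F) *ᵥ v), Matrix.mulVec_mulVec, Units.mul_inv,
    Matrix.one_mulVec]

/-- Conjugation by a similarity commutes with taking adjoints. -/
theorem IsAdj.conj {g : GL ι F} {c : F} (hc : c ≠ 0)
    (hg : ∀ u v, f ((g : Matrix ι ι F) *ᵥ u) ((g : Matrix ι ι F) *ᵥ v) = c * f u v)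
    {X Y : Matrix ι ι F} (h : IsAdj f X Y) : IsAdj f (conjMat g X) (conjMat g Y) := by
  intro u v
  obtain ⟨u', rfl⟩ : ∃ u', (g : Matrix ι ι F) *ᵥ u' = u :=
    ⟨((g⁻¹ : GL ι F) : Matrix ι ι F) *ᵥ u, by rw [Matrix.mulVec_mulVec, Units.mul_inv, Matrix.one_mulVec]⟩
  obtain ⟨v', rfl⟩ : ∃ v', (g : Matrix ι ι F) *ᵥ v' = v :=
    ⟨((g⁻¹ : GL ι F) : Matrix ι ι F) *ᵥ v, by rw [Matrix.mulVec_mulVec, Units.mul_inv, Matrix.one_mulVec]⟩
  rw [mulVec_conjMat, mulVec_conjMat, hg, hg, h]

/-- The subalgebra is closed under adjoints. -/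
def Closed (f : (ι → F) → (ι → F) → F) (A : Subalgebra F (Matrix ι ι F)) : Prop :=
  ∀ X ∈ A, ∃ Y ∈ A, IsAdj f X Y

theorem Closed.isAdjointClosedFor {A : Subalgebra F (Matrix ι ι F)} (h : Closed f A) :
    Geo.IsAdjointClosedFor f A := h

/-- The algebra generated by a group of isometries is closed under adjoints. -/
theorem closed_adjoin (hf : RForm σ ε f) {N : Subgroup (GL ι F)}
    (hN : ∀ g ∈ N, ∀ u v, f ((g : Matrix ι ι F) *ᵥ u) ((g : Matrix ι ι F) *ᵥ v) = f u v) :
    Closed f (Algebra.adjoin F (Geo.matrixSet N)) := by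
  intro X hX
  induction hX using Algebra.adjoin_induction with
  | mem x hx =>
    obtain ⟨g, hg, rfl⟩ := hx
    exact ⟨_, Algebra.subset_adjoin ⟨g⁻¹, N.inv_mem hg, rfl⟩, isAdj_of_isometry (hN g hg)⟩
  | algebraMap c => exact ⟨_, Subalgebra.algebraMap_mem _ _, isAdj_algebraMap hf c⟩
  | add x y _ _ hx hy =>
    obtain ⟨a, ha, hxa⟩ := hx
    obtain ⟨b, hb, hyb⟩ := hy
    exact ⟨a + b, add_mem ha hb, hxa.add hf hyb⟩
  | mul x y _ _ hx hy =>
    obtain ⟨a, ha, hxa⟩ := hx
    obtain ⟨b, hb, hyb⟩ := hy
    exact ⟨b * a, mul_mem hb ha, hxa.mul hyb⟩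

/-- The centre of an adjoint-closed subalgebra is adjoint-closed. -/
theorem Closed.centre (hf : RForm σ ε f) {A : Subalgebra F (Matrix ι ι F)} (h : Closed f A) :
    Closed f (A ⊓ Subalgebra.centralizer F (A : Set (Matrix ι ι F))) := by
  intro X hX
  rw [Algebra.mem_inf, Subalgebra.mem_centralizer_iff] at hX
  obtain ⟨Y, hY, hXY⟩ := h X hX.1
  refine ⟨Y, ⟨hY, (Subalgebra.mem_centralizer_iff F).2 fun Z hZ => ?_⟩, hXY⟩
  obtain ⟨Z', hZ', hZZ'⟩ := h Z hZ
  have h1 : IsAdj f (X * Z') (Z * Y) := hXY.mul (hZZ'.symm hf)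
  have h2 : IsAdj f (Z' * X) (Y * Z) := (hZZ'.symm hf).mul hXY
  rw [hX.2 Z' hZ'] at h2
  exact IsAdj.unique hf h1 h2

/-- Adjoints permute the primitive idempotents of a commutative closed subalgebra. -/
theorem isAdj_mem_primIdems (hf : RForm σ ε f) {Z : Subalgebra F (Matrix ι ι F)}
    (hc : ∀ x ∈ Z, ∀ y ∈ Z, x * y = y * x) (hZ : Closed f Z) {e : Matrix ι ι F}
    (he : e ∈ primIdems Z) : ∃ e' ∈ primIdems Z, IsAdj f e e' := by
  obtain ⟨e', he', hadj⟩ := hZ e he.1
  refine ⟨e', ⟨he', ?_, hadj.ne_zero hf he.2.2.1, fun x hx hxx hxe => ?_⟩, hadj⟩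
  · have := hadj.mul hadj
    rw [he.2.1] at this
    exact (IsAdj.unique hf hadj this).symm
  · obtain ⟨x', hx', hxadj⟩ := hZ x hx
    have h1 : x' * x' = x' := by
      have := hxadj.mul hxadj
      rw [hxx] at this
      exact (IsAdj.unique hf hxadj this).symm
    have h2 : x' * e = x' := by
      have := (hadj.symm hf).mul hxadj
      rw [hc e' he' x hx, hxe] at this
      exact (IsAdj.unique hf hxadj this).symm
    rcases he.2.2.2 x' hx' h1 h2 with h | h
    · left
      exact IsAdj.unique_left hf (h ▸ hxadj) (isAdj_zero hf)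
    · right
      exact IsAdj.unique hf ((h ▸ hxadj : IsAdj f x e).symm hf) hadj

/-! ### Frames and forms -/

variable {G : Subgroup (GL ι F)} {t : ℕ}

/-- A frame of self-adjoint idempotents gives an orthogonal decomposition. -/
theorem nondegenerateMDecomposition (hf : RForm σ ε f) (S : Frame G t)
    (hS : ∀ i, IsAdj f (S.e i) (S.e i)) :
    ∃ m, Geo.IsNondegenerateMDecomposition f m S.space ∧ t * m = Fintype.card ι := by
  obtain ⟨m, hm, hcard⟩ := S.isMDecomposition
  refine ⟨m, ⟨hm, fun i w hw hw0 => ?_, fun i j hij u hu v hv => ?_⟩, hcard⟩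
  · rw [S.mem_space] at hw
    obtain ⟨⟨x, hx⟩, ⟨y, hy⟩⟩ := hf.nondeg w hw0
    constructor
    · refine ⟨S.e i *ᵥ x, S.mem_space.2 (by rw [Matrix.mulVec_mulVec, S.idem]), ?_⟩
      rwa [hS i, hw]
    · refine ⟨S.e i *ᵥ y, S.mem_space.2 (by rw [Matrix.mulVec_mulVec, S.idem]), ?_⟩
      rwa [← hS i, hw]
  · rw [S.mem_space] at hu hv
    rw [← hu, hS i, ← hv, Matrix.mulVec_mulVec, S.ortho i j hij, Matrix.zero_mulVec, hf.zero_right]

/-- A member moved by the adjoint is totally singular. -/
theorem totallySingular (hf : RForm σ ε f) (S : Frame G t) {i j : Fin t} (hij : i ≠ j)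
    (h : IsAdj f (S.e i) (S.e j)) : Geo.IsTotallySingularFor f (S.space i) := by
  intro u hu v hv
  rw [S.mem_space] at hu hv
  rw [← hu, h, ← hv, Matrix.mulVec_mulVec, S.ortho j i hij.symm, Matrix.zero_mulVec, hf.zero_right]

/-- What a form sees of a frame: an orthogonal decomposition, a pair of totally singular subspaces, or
a coarser orthogonal decomposition obtained by pairing. -/
theorem frame_form_cases (hf : RForm σ ε f)
    (hG : ∀ g ∈ G, ∃ c : F, c ≠ 0 ∧
      ∀ u v, f ((g : Matrix ι ι F) *ᵥ u) ((g : Matrix ι ι F) *ᵥ v) = c * f u v)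
    (S : Frame G t) (hS : ∀ i, ∃ j, IsAdj f (S.e i) (S.e j)) :
    (∃ (s m : ℕ) (D : Fin s → Submodule F (ι → F)),
      Geo.IsNondegenerateMDecomposition f m D ∧ s * m = Fintype.card ι ∧
        G ≤ Geo.decompositionStabilizer D) ∨
    (∃ (m : ℕ) (D : Fin 2 → Submodule F (ι → F)), Geo.IsMDecomposition m D ∧ 2 * m = Fintype.card ι ∧
      (∀ i, Geo.IsTotallySingularFor f (D i)) ∧ G ≤ Geo.decompositionStabilizer D) := by
  classical
  choose τ hτ using hS
  have heinj : Function.Injective S.e := by
    intro i j hij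
    by_contra hne
    have := S.ortho i j hne
    rw [← hij, S.idem] at this
    exact S.ne_zero i this
  have hττ : ∀ i, τ (τ i) = i := fun i =>
    heinj (IsAdj.unique hf (hτ (τ i)) ((hτ i).symm hf))
  have hcomm : ∀ g ∈ G, ∀ i j, conjMat g (S.e i) = S.e j → conjMat g (S.e (τ i)) = S.e (τ j) := by
    intro g hg i j hij
    obtain ⟨c, hc, hgc⟩ := hG g hg
    have := (hτ i).conj hc hgc
    rw [hij] at this
    exact IsAdj.unique hf this (hτ j)
  by_cases hfix : ∃ i, τ i = i
  · obtain ⟨i₀, hi₀⟩ := hfix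
    have hall : ∀ i, τ i = i := by
      intro i
      obtain ⟨g, hg, hgi⟩ := S.trans i₀ i
      have := hcomm g hg i₀ i hgi
      rw [hi₀, hgi] at this
      exact (heinj this).symm
    obtain ⟨m, hm, hcard⟩ := nondegenerateMDecomposition hf S fun i => by simpa [hall i] using hτ i
    exact Or.inl ⟨t, m, S.space, hm, hcard, S.le_stabilizer⟩
  · push Not at hfix
    by_cases ht : t = 2
    · subst ht
      obtain ⟨m, hm, hcard⟩ := S.isMDecomposition
      exact Or.inr ⟨m, S.space, hm, hcard,
        fun i => totallySingular hf S (Ne.symm (hfix i)) (hτ i), S.le_stabilizer⟩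
    · left
      let R : Finset (Fin t) := Finset.univ.filter fun i => i < τ i
      have hRmem : ∀ i, i ∈ R ↔ i < τ i := fun i => by simp [R]
      let r : Fin t → Fin t := fun i => if i < τ i then i else τ i
      have hr : ∀ i, r i ∈ R := by
        intro i
        rw [hRmem]
        by_cases h : i < τ i
        · simp [r, h]
        · simp only [r, h, if_false, hττ]
          exact lt_of_le_of_ne (not_lt.1 h) (hfix i)
      have hrp : ∀ i, r i = i ∨ r i = τ i := fun i => by
        by_cases h : i < τ i <;> simp [r, h]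
      let E : R → Matrix ι ι F := fun i => S.e i + S.e (τ i)
      let φ : Fin (Fintype.card R) ≃ R := (Fintype.equivFin R).symm
      have hne : ∀ i j : R, i ≠ j → (i : Fin t) ≠ j ∧ (i : Fin t) ≠ τ j := by
        intro i j hij
        refine ⟨fun h => hij (Subtype.ext h), fun h => ?_⟩
        have h1 := (hRmem _).1 i.2
        have h2 := (hRmem _).1 j.2
        rw [h, hττ] at h1
        exact lt_asymm h1 h2
      have hortho : ∀ i j : R, i ≠ j → E i * E j = 0 := by
        intro i j hij
        obtain ⟨h1, h2⟩ := hne i j hij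
        have h3 : τ (i : Fin t) ≠ τ j := fun h => h1 (by rw [← hττ i, h, hττ])
        have h4 : τ (i : Fin t) ≠ j := fun h => h2 (by rw [← hττ i, h])
        simp only [E, add_mul, mul_add, S.ortho _ _ h1, S.ortho _ _ h2, S.ortho _ _ h3,
          S.ortho _ _ h4, add_zero]
      have hidem : ∀ i : R, E i * E i = E i := fun i => by
        simp only [E, add_mul, mul_add, S.idem, S.ortho _ _ (hfix i), S.ortho _ _ (Ne.symm (hfix i)),
          add_zero, zero_add]
      have hadj : ∀ i : R, IsAdj f (E i) (E i) := fun i => by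
        have := (hτ i).add hf (hτ (τ i))
        rw [hττ] at this
        rwa [add_comm (S.e (τ i)) (S.e i)] at this
      have hEne : ∀ i : R, E i ≠ 0 := by
        intro i h
        have h' := congrArg (S.e i * ·) h
        simp only [E, mul_add, S.idem, S.ortho _ _ (Ne.symm (hfix i)), add_zero, mul_zero] at h'
        exact S.ne_zero _ h'
      have hsum : ∑ i : R, E i = 1 := by
        rw [← S.sum_eq, Finset.sum_coe_sort R (fun i => S.e i + S.e (τ i)), Finset.sum_add_distrib,
          ← Finset.sum_filter_add_sum_filter_not Finset.univ (fun i => i < τ i) S.e]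
        congr 1
        refine Finset.sum_bij' (fun i _ => τ i) (fun i _ => τ i) ?_ ?_ (fun i _ => hττ i)
          (fun i _ => hττ i) (fun i _ => rfl)
        · intro i hi
          simp only [Finset.mem_filter, Finset.mem_univ, true_and, hττ]
          exact not_lt.2 ((hRmem i).1 hi).le
        · intro i hi
          rw [hRmem, hττ]
          exact lt_of_le_of_ne (not_lt.1 (Finset.mem_filter.1 hi).2) (hfix i)
      have hcase : ∀ i j : Fin t, S.e (r i) + S.e (τ (r i)) = S.e i + S.e (τ i) := by
        intro i _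
        rcases hrp i with h | h <;> rw [h]
        rw [hττ, add_comm]
      have hperm : ∀ g ∈ G, ∀ i : R, ∃ j : R, conjMat g (E i) = E j := by
        intro g hg i
        obtain ⟨π, hπ⟩ := S.perm g hg
        refine ⟨⟨r (π i), hr _⟩, ?_⟩
        simp only [E, hcase _ (π i)]
        simp only [conjMat, mul_add, add_mul]
        exact congrArg₂ (· + ·) (hπ _) (hcomm g hg _ _ (hπ _))
      have htwo : 2 ≤ Fintype.card R := by
        by_contra hlt
        have hsub : ∀ i j : R, i = j := fun i j => Fintype.card_le_one_iff.1 (by omega) i j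
        apply ht
        have h0 : 0 < t := by have := S.two_le; omega
        let i₀ : R := ⟨r ⟨0, h0⟩, hr _⟩
        have huniv : ∀ i : Fin t, i ∈ ({(i₀ : Fin t), τ i₀} : Finset (Fin t)) := by
          intro i
          have := congrArg Subtype.val (hsub ⟨r i, hr i⟩ i₀)
          simp only at this
          rcases hrp i with h | h <;> rw [h] at this
          · simp [this]
          · simp [← this, hττ]
        have h1 := Finset.card_le_card (fun i _ => huniv i : Finset.univ ⊆ ({(i₀ : Fin t), τ i₀} : Finset (Fin t)))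
        have h2 : ({(i₀ : Fin t), τ i₀} : Finset (Fin t)).card ≤ 2 := Finset.card_le_two
        have := S.two_le
        simp at h1
        omega
      let T : Frame G (Fintype.card R) :=
        { e := fun k => E (φ k)
          two_le := htwo
          ne_zero := fun k => hEne _
          idem := fun k => hidem _
          ortho := fun a b hab => hortho _ _ (φ.injective.ne hab)
          sum_eq := by rw [φ.sum_comp E, hsum]
          perm := fun g hg => by
            choose s hs using hperm g hg
            have hsi : Function.Injective s := by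
              intro a b hab
              by_contra hne'
              have h0 := hortho a b hne'
              have : conjMat g (E a) = conjMat g (E b) := by rw [hs, hs, hab]
              rw [← conjMat_inv_cancel g (E a), this, conjMat_inv_cancel, hidem] at h0
              exact hEne b h0
            refine ⟨(φ.trans (Equiv.ofBijective s (Finite.injective_iff_bijective.1 hsi))).trans φ.symm,
              fun k => ?_⟩
            simp [hs]
          trans := fun a b => by
            obtain ⟨g, hg, hab⟩ := S.trans (φ a : Fin t) (φ b : Fin t)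
            refine ⟨g, hg, ?_⟩
            simp only [E, conjMat, mul_add, add_mul]
            exact congrArg₂ (· + ·) hab (hcomm g hg _ _ hab) }
      obtain ⟨m, hm, hcard⟩ := nondegenerateMDecomposition hf T fun k => hadj _
      exact ⟨_, m, T.space, hm, hcard, T.le_stabilizer⟩

/-- An idempotent system of a closed commutative subalgebra has its members permuted by adjoints. -/
theorem idemSystem_adj {Z : Subalgebra F (Matrix ι ι F)} (hf : RForm σ ε f)
    (hc : ∀ x ∈ Z, ∀ y ∈ Z, x * y = y * x) (hZ : Closed f Z) (S : IdemSystem G Z t) (i : Fin t) :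
    ∃ j, IsAdj f (S.toFrame.e i) (S.toFrame.e j) := by
  have hmem : S.e i ∈ primIdems Z := by rw [← S.range_eq]; exact ⟨i, rfl⟩
  obtain ⟨e', he', hadj⟩ := isAdj_mem_primIdems hf hc hZ hmem
  obtain ⟨j, rfl⟩ := S.range_eq.symm ▸ he'
  exact ⟨j, hadj⟩

end CfsgLib.Aschbacher.Forms
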