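import Mathlib
import Cfsg.Agent.Aschbacher.Forms
import Cfsg.Agent.Aschbacher.CentreField

/-!
Field subalgebras closed under the adjoint of a reflexive form: odd prime degree gives a self-adjoint
field in the bilinear case, degree two is impossible in the unitary case, self-adjoint fields in the
alternating case, and the quadratic form attached to a non-self-adjoint quadratic extension in
characteristic two.
-/

set_option autoImplicit false
set_option linter.unusedSectionVars false
set_option linter.style.haveILetI false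

namespace CfsgLib.Aschbacher.Forms

open Matrix Cfsg Module CfsgLib.Aschbacher.Centre

variable {ι : Type} [Fintype ι] [DecidableEq ι] {F : Type*} [Field F]
variable {σ : F →+* F} {ε : F} {f : (ι → F) → (ι → F) → F}

/-- A field subalgebra is a field. -/
theorem isField_of_isFieldSubalgebra [Nonempty ι] {r : ℕ} {K : Subalgebra F (Matrix ι ι F)}
    (hK : Geo.IsFieldSubalgebra r K) : IsField K where
  exists_pair_ne := ⟨0, 1, fun h => zero_ne_one (congrArg Subtype.val h)⟩
  mul_comm a b := Subtype.ext (hK.comm _ a.2 _ b.2)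
  mul_inv_cancel {a} ha := by
    obtain ⟨y, hy, hay⟩ := hK.inv a.1 a.2 fun h => ha (Subtype.ext h)
    exact ⟨⟨y, hy⟩, Subtype.ext hay⟩

theorem isFieldLike_of_isFieldSubalgebra {r : ℕ} {K : Subalgebra F (Matrix ι ι F)}
    (hK : Geo.IsFieldSubalgebra r K) : IsFieldLike K := hK.inv

section

variable [Fintype F]

theorem closed_powFixed [Nonempty ι] (hf : RForm σ ε f) {Z : Subalgebra F (Matrix ι ι F)}
    (hc : ∀ x ∈ Z, ∀ y ∈ Z, x * y = y * x) (hZ : Closed f Z) (r : ℕ) :
    Closed f (powFixed Z hc r) := by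
  intro X hX
  obtain ⟨Y, hY, hXY⟩ := hZ X hX.1
  refine ⟨Y, ⟨hY, ?_⟩, hXY⟩
  have := hXY.pow (Fintype.card F ^ r)
  rw [hX.2] at this
  exact (IsAdj.unique hf hXY this).symm

/-- The adjoint map of a closed commutative subalgebra. -/
theorem exists_adjointHom (hf : RForm σ ε f) {K : Subalgebra F (Matrix ι ι F)}
    (hc : ∀ x ∈ K, ∀ y ∈ K, x * y = y * x) (hK : Closed f K) :
    ∃ τ : K ≃+* K, (∀ x : K, IsAdj f (x : Matrix ι ι F) (τ x : Matrix ι ι F)) ∧
      (∀ x, τ (τ x) = x) ∧ ∀ c : F, τ (algebraMap F K c) = algebraMap F K (σ c) := by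
  choose g hgK hg using fun x : K => hK x.1 x.2
  let g' : K → K := fun x => ⟨g x, hgK x⟩
  have hinv : ∀ x, g' (g' x) = x := fun x =>
    Subtype.ext (IsAdj.unique hf (hg (g' x)) ((hg x).symm hf))
  let τ : K ≃+* K :=
    { toFun := g'
      invFun := g'
      left_inv := hinv
      right_inv := hinv
      map_mul' := fun x y => Subtype.ext <| by
        have h := (hg x).mul (hg y)
        rw [hc _ (hgK y) _ (hgK x)] at h
        exact IsAdj.unique hf (hg (x * y)) h
      map_add' := fun x y => Subtype.ext (IsAdj.unique hf (hg (x + y)) ((hg x).add hf (hg y))) }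
  exact ⟨τ, hg, hinv, fun c =>
    Subtype.ext (IsAdj.unique hf (hg (algebraMap F K c)) (isAdj_algebraMap hf c))⟩

/-- Bilinear case, odd prime degree: a closed field is self-adjoint. -/
theorem selfAdjoint_of_odd [Nonempty ι] (hf : RForm (RingHom.id F) ε f) {r : ℕ} (hr : Odd r)
    {K : Subalgebra F (Matrix ι ι F)} (hK : Geo.IsFieldSubalgebra r K) (hKc : Closed f K) :
    Geo.IsSelfAdjointFor f K := by
  obtain ⟨τ, hτ, hττ, hτc⟩ := exists_adjointHom hf hK.comm hKc
  letI := (isField_of_isFieldSubalgebra hK).toField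
  haveI : Finite K := Finite.of_injective (fun x : K => (x : Matrix ι ι F)) Subtype.val_injective
  let T : K ≃ₐ[F] K := AlgEquiv.ofRingEquiv (f := τ) fun c => hτc c
  have hT2 : T ^ 2 = 1 := by
    ext x
    simp [sq, T, hττ]
  have hcard : Nat.card (K ≃ₐ[F] K) = r := by
    rw [IsGalois.card_aut_eq_finrank, hK.finrank_eq]
  have hTr : T ^ r = 1 := hcard ▸ pow_card_eq_one'
  obtain ⟨s, hs⟩ := hr
  rw [hs, pow_succ, pow_mul, hT2, one_pow, one_mul] at hTr
  intro k hk u v
  have h := hτ ⟨k, hk⟩ u v
  have h1 : τ ⟨k, hk⟩ = ⟨k, hk⟩ := AlgEquiv.congr_fun hTr ⟨k, hk⟩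
  rwa [h1] at h

/-- Unitary case: there is no closed field of degree two. -/
theorem false_of_unitary_deg_two [Nonempty ι] (hf : RForm σ ε f) (hσ : σ ≠ RingHom.id F)
    {K : Subalgebra F (Matrix ι ι F)} (hK : Geo.IsFieldSubalgebra 2 K) (hKc : Closed f K) : False := by
  classical
  obtain ⟨τ, -, hττ, hτc⟩ := exists_adjointHom hf hK.comm hKc
  letI := (isField_of_isFieldSubalgebra hK).toField
  haveI : Finite K := Finite.of_injective (fun x : K => (x : Matrix ι ι F)) Subtype.val_injective
  have := Fintype.ofFinite K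
  let H : Subgroup (RingAut K) := Subgroup.zpowers (show RingAut K from τ)
  have hord : orderOf (show RingAut K from τ) = 2 := by
    refine orderOf_eq_prime (RingEquiv.ext fun x => ?_) fun h => hσ ?_
    · simpa [sq] using hττ x
    · ext c
      apply (algebraMap F K).injective
      rw [← hτc c]
      exact (RingEquiv.congr_fun h (algebraMap F K c)).trans rfl
  haveI : Finite (RingAut K) := Finite.of_injective (fun e : RingAut K => (e : K → K)) DFunLike.coe_injective
  haveI : Fintype H := Fintype.ofFinite H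
  have hL : finrank (FixedPoints.subfield H K) K = 2 := by
    rw [FixedPoints.finrank_eq_card, ← Nat.card_eq_fintype_card, Nat.card_zpowers, hord]
  have hcardK : Nat.card K = Fintype.card F ^ 2 := by
    rw [Module.natCard_eq_pow_finrank (K := F), hK.finrank_eq, Nat.card_eq_fintype_card]
  have hcardL : Nat.card (FixedPoints.subfield H K) = Fintype.card F := by
    have := Module.natCard_eq_pow_finrank (K := FixedPoints.subfield H K) (V := K)
    rw [hL, hcardK] at this
    exact (Nat.pow_left_injective two_ne_zero this).symm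
  haveI := Fintype.ofFinite (FixedPoints.subfield H K)
  rw [Nat.card_eq_fintype_card] at hcardL
  let p : Polynomial K := Polynomial.X ^ Fintype.card F - Polynomial.X
  have hp0 : p ≠ 0 := FiniteField.X_pow_card_sub_X_ne_zero K Fintype.one_lt_card
  have hdeg : p.natDegree = Fintype.card F :=
    FiniteField.X_pow_card_sub_X_natDegree_eq K Fintype.one_lt_card
  let SL : Finset K := Finset.univ.filter fun x => x ∈ FixedPoints.subfield H K
  let SF : Finset K := (Finset.univ : Finset F).image (algebraMap F K)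
  have hLsub : SL ⊆ p.roots.toFinset := by
    intro x hx
    obtain ⟨-, hy⟩ := Finset.mem_filter.1 hx
    rw [Multiset.mem_toFinset, Polynomial.mem_roots hp0]
    have : (⟨x, hy⟩ : FixedPoints.subfield H K) ^ Fintype.card F = ⟨x, hy⟩ := by
      rw [← hcardL]; exact FiniteField.pow_card _
    simp only [p, Polynomial.IsRoot, Polynomial.eval_sub, Polynomial.eval_pow, Polynomial.eval_X,
      sub_eq_zero]
    exact congrArg Subtype.val this
  have hFsub : SF ⊆ p.roots.toFinset := by
    intro x hx
    obtain ⟨c, -, rfl⟩ := Finset.mem_image.1 hx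
    rw [Multiset.mem_toFinset, Polynomial.mem_roots hp0]
    simp [p, ← map_pow, FiniteField.pow_card]
  have hle : p.roots.toFinset.card ≤ Fintype.card F :=
    ((Multiset.toFinset_card_le _).trans (Polynomial.card_roots' p)).trans hdeg.le
  have hSL : SL.card = Fintype.card F := by
    rw [← Fintype.card_subtype, ← hcardL]
  have hSF : SF.card = Fintype.card F := by
    rw [Finset.card_image_of_injective _ (algebraMap F K).injective, Finset.card_univ]
  have h1 := Finset.eq_of_subset_of_card_le hLsub (by omega)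
  have h2 := Finset.eq_of_subset_of_card_le hFsub (by omega)
  apply hσ
  ext c
  have hc : algebraMap F K c ∈ SL := by
    rw [h1, ← h2]
    exact Finset.mem_image_of_mem _ (Finset.mem_univ c)
  have hfix := (Finset.mem_filter.1 hc).2 (⟨τ, Subgroup.mem_zpowers _⟩ : H)
  apply (algebraMap F K).injective
  rw [← hτc c]
  exact hfix

/-- Self-adjoint fields and alternating forms. -/
theorem alternating_of_selfAdjoint [Nonempty ι] (hs : Geo.IsSymplecticForm f) {r : ℕ}
    {K : Subalgebra F (Matrix ι ι F)} (hK : Geo.IsFieldSubalgebra r K)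
    (hsa : Geo.IsSelfAdjointFor f K) : ∀ k ∈ K, ∀ v, f (k *ᵥ v) v = 0 := by
  intro k hk v
  by_cases h2 : (2 : F) = 0
  · letI := (isField_of_isFieldSubalgebra hK).toField
    haveI : Finite K := Finite.of_injective (fun x : K => (x : Matrix ι ι F)) Subtype.val_injective
    have := Fintype.ofFinite K
    obtain ⟨p, hp⟩ := CharP.exists F
    have hp2 : p = 2 := (Nat.prime_dvd_prime_iff_eq (CharP.char_is_prime F p) Nat.prime_two).1
      ((CharP.cast_eq_zero_iff F p 2).1 (by exact_mod_cast h2))
    subst hp2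
    haveI : CharP K 2 := charP_of_injective_algebraMap (algebraMap F K).injective 2
    haveI : Fact (Nat.Prime 2) := ⟨Nat.prime_two⟩
    obtain ⟨l, hl⟩ := (bijective_frobenius K 2).2 ⟨k, hk⟩
    have hkl : k = (l : Matrix ι ι F) * (l : Matrix ι ι F) := by
      have := congrArg Subtype.val hl
      rw [frobenius_def, sq, Subalgebra.coe_mul] at this
      exact this.symm
    rw [hkl, ← Matrix.mulVec_mulVec, hsa _ l.2]
    exact hs.alternating _
  · have h1 : f (k *ᵥ v) v = - f (k *ᵥ v) v := by
      conv_rhs => rw [← hs.skew]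
      exact hsa k hk v v
    have : (2 : F) * f (k *ᵥ v) v = 0 := by linear_combination h1
    exact (mul_eq_zero.1 this).resolve_left h2

end

/-- A subspace invariant under a field subalgebra of degree `r` with self-adjoint, alternating
action, on which the form is non-degenerate, has dimension divisible by `2r`. -/
theorem two_mul_dvd_finrank [Nonempty ι] (hs : Geo.IsSymplecticForm f) {r : ℕ}
    {K : Subalgebra F (Matrix ι ι F)} (hK : Geo.IsFieldSubalgebra r K)
    (hsa : Geo.IsSelfAdjointFor f K) (halt : ∀ k ∈ K, ∀ v, f (k *ᵥ v) v = 0)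
    (W : Submodule F (ι → F)) (hW : Geo.IsNondegenerateOn f W)
    (hinv : ∀ k ∈ K, ∀ v ∈ W, k *ᵥ v ∈ W) : 2 * r ∣ finrank F W := by
  induction hn : finrank F W using Nat.strong_induction_on generalizing W with
  | _ n ih =>
    subst hn
    by_cases hW0 : W = ⊥
    · subst hW0; simp
    obtain ⟨v, hv, hv0⟩ := Submodule.exists_mem_ne_zero_of_ne_bot hW0
    obtain ⟨w, hw, hvw⟩ := (hW v hv hv0).2
    have hB := hs.bilinear
    have hsame : ∀ a ∈ K, ∀ b ∈ K, ∀ x, f (a *ᵥ x) (b *ᵥ x) = 0 := by
      intro a ha b hb x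
      rw [hsa a ha, Matrix.mulVec_mulVec, hs.skew, halt _ (mul_mem ha hb), neg_zero]
    let ev : K × K →ₗ[F] (ι → F) :=
      { toFun := fun p => (p.1 : Matrix ι ι F) *ᵥ v + (p.2 : Matrix ι ι F) *ᵥ w
        map_add' := fun p q => by simp [Matrix.add_mulVec]; abel
        map_smul' := fun c p => by simp [Matrix.smul_mulVec, smul_add] }
    let U := LinearMap.range ev
    have hUW : U ≤ W := by
      rintro _ ⟨p, rfl⟩
      exact W.add_mem (hinv _ p.1.2 v hv) (hinv _ p.2.2 w hw)
    have hsep : ∀ p : K × K, (∀ u ∈ U, f u (ev p) = 0) → p = 0 := by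
      intro p hp
      have key : ∀ a : K, (∀ b ∈ K, f (b *ᵥ w) ((a : Matrix ι ι F) *ᵥ v) = 0 ∨
          f (b *ᵥ v) ((a : Matrix ι ι F) *ᵥ w) = 0) → (a : Matrix ι ι F) = 0 := by
        intro a ha
        by_contra ha0
        obtain ⟨y, hy, hay⟩ := hK.inv _ a.2 ha0
        have hya : y * (a : Matrix ι ι F) = 1 := by rw [hK.comm y hy _ a.2, hay]
        rcases ha y hy with h | h
        · rw [hsa y hy, Matrix.mulVec_mulVec, hya, Matrix.one_mulVec, hs.skew, neg_eq_zero] at h
          exact hvw h
        · rw [hsa y hy, Matrix.mulVec_mulVec, hya, Matrix.one_mulVec] at h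
          exact hvw h
      have h1 : (p.1 : Matrix ι ι F) = 0 := key p.1 fun b hb => Or.inl <| by
        have := hp _ ⟨(0, ⟨b, hb⟩), rfl⟩
        simpa [ev, hB.add_right, hsame b hb _ p.2.2 w] using this
      have h2 : (p.2 : Matrix ι ι F) = 0 := key p.2 fun b hb => Or.inr <| by
        have := hp _ ⟨(⟨b, hb⟩, 0), rfl⟩
        simpa [ev, hB.add_right, hsame b hb _ p.1.2 v] using this
      exact Prod.ext (Subtype.ext h1) (Subtype.ext h2)
    have hz : ∀ u, f u 0 = 0 := fun u => by simpa using hB.smul_right 0 u 0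
    have hinj : Function.Injective ev := by
      rw [← LinearMap.ker_eq_bot, LinearMap.ker_eq_bot']
      exact fun p hp => hsep p fun u _ => by rw [hp, hz]
    have hU : finrank F U = 2 * r := by
      rw [LinearMap.finrank_range_of_inj hinj, Module.finrank_prod, hK.finrank_eq, two_mul]
    let L : W →ₗ[F] Module.Dual F U :=
      { toFun := fun x =>
          { toFun := fun u => f u x
            map_add' := fun a b => hB.add_left _ _ _
            map_smul' := fun c a => hB.smul_left _ _ _ }
        map_add' := fun a b => LinearMap.ext fun u => hB.add_right _ _ _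
        map_smul' := fun c a => LinearMap.ext fun u => hB.smul_right _ _ _ }
    let L' : U →ₗ[F] Module.Dual F U := L.comp (Submodule.inclusion hUW)
    have hL'inj : Function.Injective L' := by
      rw [← LinearMap.ker_eq_bot, LinearMap.ker_eq_bot']
      intro x hx
      obtain ⟨p, hp⟩ := x.2
      have : p = 0 := hsep p fun u hu => by
        rw [hp]
        exact LinearMap.congr_fun hx ⟨u, hu⟩
      exact Subtype.ext (by rw [← hp, this, map_zero, Submodule.coe_zero])
    have hL' : Function.Surjective L' :=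
      (LinearMap.injective_iff_surjective_of_finrank_eq_finrank (by
        rw [Subspace.dual_finrank_eq])).1 hL'inj
    have hLsurj : Function.Surjective L := fun φ => by
      obtain ⟨x, hx⟩ := hL' φ
      exact ⟨_, hx⟩
    let W' : Submodule F (ι → F) := (LinearMap.ker L).map W.subtype
    have hW'mem : ∀ x, x ∈ W' ↔ x ∈ W ∧ ∀ u ∈ U, f u x = 0 := by
      intro x
      constructor
      · rintro ⟨y, hy, rfl⟩
        exact ⟨y.2, fun u hu => LinearMap.congr_fun hy ⟨u, hu⟩⟩
      · rintro ⟨hx, h⟩
        exact ⟨⟨x, hx⟩, LinearMap.ext fun u => h u u.2, rfl⟩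
    have hrk : finrank F W' + 2 * r = finrank F W := by
      rw [← hU, ← Subspace.dual_finrank_eq (V := U), ← LinearMap.finrank_range_add_finrank_ker L,
        LinearMap.range_eq_top.2 hLsurj, finrank_top, add_comm]
      congr 1
      exact (Submodule.equivMapOfInjective _ Subtype.val_injective _).finrank_eq.symm
    have hW'nd : Geo.IsNondegenerateOn f W' := by
      intro x hx hx0
      rw [hW'mem] at hx
      obtain ⟨y, hy, hxy⟩ := (hW x hx.1 hx0).1
      obtain ⟨u, hu⟩ := hL' (L ⟨y, hy⟩)
      have hy' : y - (u : ι → F) ∈ W' := by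
        rw [hW'mem]
        refine ⟨W.sub_mem hy (hUW u.2), fun z hz' => ?_⟩
        have := LinearMap.congr_fun hu ⟨z, hz'⟩
        change f z u = f z y at this
        have h2 := hB.add_right z (y - (u : ι → F)) u
        rw [sub_add_cancel] at h2
        linear_combination -h2 - this
      have h3 : f (y - (u : ι → F)) x ≠ 0 := by
        have h2 := hB.add_left (y - (u : ι → F)) u x
        rw [sub_add_cancel, hx.2 u u.2, add_zero] at h2
        rwa [← h2]
      exact ⟨⟨_, hy', h3⟩, ⟨_, hy', by rw [hs.skew, neg_ne_zero]; exact h3⟩⟩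
    have hW'inv : ∀ k ∈ K, ∀ x ∈ W', k *ᵥ x ∈ W' := by
      intro k hk x hx
      rw [hW'mem] at hx ⊢
      refine ⟨hinv k hk x hx.1, ?_⟩
      rintro _ ⟨p, rfl⟩
      rw [← hsa k hk]
      refine hx.2 _ ⟨(⟨k * p.1, mul_mem hk p.1.2⟩, ⟨k * p.2, mul_mem hk p.2.2⟩), ?_⟩
      simp [ev, Matrix.mulVec_add, Matrix.mulVec_mulVec]
    have hr0 : 0 < r := by
      rw [← hK.finrank_eq]
      haveI : Nontrivial K := ⟨⟨0, 1, fun h => zero_ne_one (congrArg Subtype.val h)⟩⟩
      exact Module.finrank_pos
    have := ih (finrank F W') (by omega) W' hW'nd hW'inv rfl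
    rw [← hrk]
    exact dvd_add this dvd_rfl

/-- Characteristic two: a closed quadratic extension that is not self-adjoint gives a quadratic form
polarising to the alternating form and preserved by the isometries normalising the field. -/
theorem quad_of_not_selfAdjoint [Fintype F] [Nonempty ι] (h2 : (2 : F) = 0)
    (hs : Geo.IsSymplecticForm f) {K : Subalgebra F (Matrix ι ι F)} (hK : Geo.IsFieldSubalgebra 2 K)
    (hKc : Closed f K) (hnsa : ¬ Geo.IsSelfAdjointFor f K) :
    ∃ Q : (ι → F) → F, Geo.IsNondegenerateQuadraticForm Q ∧ (∀ u v, QuadraticMap.polar Q u v = f u v) ∧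
      ∀ g : GL ι F, g ∈ Geo.subalgebraNormalizer K →
        (∀ u v, f ((g : Matrix ι ι F) *ᵥ u) ((g : Matrix ι ι F) *ᵥ v) = f u v) →
        g ∈ Geo.quadSimilarityGroup Q := by
  have hf := rform_of_symplectic hs
  have hB := hs.bilinear
  obtain ⟨τ, hτ, hττ, hτc⟩ := exists_adjointHom hf hK.comm hKc
  letI := (isField_of_isFieldSubalgebra hK).toField
  obtain ⟨k, hk⟩ : ∃ k : K, τ k ≠ k := by
    by_contra! h
    apply hnsa
    intro x hx u v
    have h1 := hτ ⟨x, hx⟩ u v
    rwa [h ⟨x, hx⟩] at h1
  have hchar : ∀ x : K, x + x = 0 := fun x => by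
    have h0 : (2 : K) = 0 := by rw [← map_ofNat (algebraMap F K) 2, h2, map_zero]
    rw [← two_mul, h0, zero_mul]
  have hspan : ∀ x : K, ∃ a b : F, x = algebraMap F K a + b • k := by
    have hli : LinearIndependent F ![(1 : K), k] := by
      rw [LinearIndependent.pair_iff' one_ne_zero]
      intro a ha
      apply hk
      rw [← ha, ← Algebra.algebraMap_eq_smul_one, hτc]
      simp
    intro x
    have hb := (basisOfLinearIndependentOfCardEqFinrank hli (by rw [hK.finrank_eq]; simp)).sum_repr x
    rw [coe_basisOfLinearIndependentOfCardEqFinrank, Fin.sum_univ_two] at hb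
    exact ⟨_, _, by rw [Algebra.algebraMap_eq_smul_one]; exact hb.symm⟩
  have hτsmul : ∀ (b : F) (x : K), τ (b • x) = b • τ x := fun b x => by
    rw [Algebra.smul_def, map_mul, hτc, Algebra.smul_def]; rfl
  obtain ⟨t, ht⟩ : ∃ t : F, k + τ k = algebraMap F K t := by
    obtain ⟨a, b, hab⟩ := hspan (τ k)
    have h1 : k = algebraMap F K a + b • (algebraMap F K a + b • k) := by
      have := congrArg τ hab
      rw [hττ, map_add, hτc, hτsmul, hab] at this
      exact this
    have h2' : (1 - b * b) • k = algebraMap F K (a + b * a) := by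
      rw [sub_smul, one_smul, map_add, map_mul, mul_smul]
      conv_lhs => arg 1; rw [h1]
      rw [smul_add, Algebra.smul_def b (algebraMap F K a)]
      abel
    have hb : b * b = 1 := by
      by_contra hb
      apply hk
      have hkF : k = algebraMap F K ((1 - b * b)⁻¹ * (a + b * a)) := by
        rw [map_mul, ← Algebra.smul_def, ← h2', inv_smul_smul₀ (sub_ne_zero.2 (Ne.symm hb))]
      rw [hkF, hτc]; rfl
    have hb1 : b = 1 := by
      rcases mul_self_eq_one_iff.1 hb with h | h
      · exact h
      · rw [h]; linear_combination (-1 : F) * h2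
    refine ⟨a, ?_⟩
    rw [hab, hb1, one_smul, add_left_comm, hchar, add_zero]
  have ht0 : t ≠ 0 := by
    rintro rfl
    rw [map_zero] at ht
    apply hk
    rw [← add_zero (τ k), ← hchar k, ← add_assoc, add_comm (τ k) k, ht, zero_add]
  set k₁ : K := algebraMap F K t⁻¹ * k with hk₁
  have hsum : k₁ + τ k₁ = 1 := by
    rw [hk₁, map_mul, hτc, RingHom.id_apply, ← mul_add, ht, ← map_mul, inv_mul_cancel₀ ht0, map_one]
  have hτk₁ : ((τ k₁ : K) : Matrix ι ι F) = (k₁ : Matrix ι ι F) + 1 := by
    have h1 : τ k₁ = k₁ + 1 := by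
      rw [← hsum, ← add_assoc, hchar, zero_add]
    rw [h1, Subalgebra.coe_add, Subalgebra.coe_one]
  let Q : (ι → F) → F := fun v => f ((k₁ : Matrix ι ι F) *ᵥ v) v
  have hpol : ∀ u v, QuadraticMap.polar Q u v = f u v := by
    intro u v
    simp only [QuadraticMap.polar, Q, Matrix.mulVec_add, hB.add_left, hB.add_right]
    have h1 : f ((k₁ : Matrix ι ι F) *ᵥ v) u =
        f v ((k₁ : Matrix ι ι F) *ᵥ u) + f v u := by
      rw [hτ k₁ v u, hτk₁, Matrix.add_mulVec, Matrix.one_mulVec, hB.add_right]
    rw [h1, hs.skew v, hs.skew v u]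
    linear_combination (-(f u v)) * h2
  refine ⟨Q, ⟨fun c v => ?_, ?_, ?_⟩, hpol, fun g hg hgf => ⟨1, fun v => ?_⟩⟩
  · simp only [Q, Matrix.mulVec_smul, hB.smul_left, hB.smul_right]; ring
  · have : QuadraticMap.polar Q = f := funext₂ hpol
    rw [this]; exact hB
  · have : QuadraticMap.polar Q = f := funext₂ hpol
    rw [this]; exact hs.nondegenerate
  · rw [Units.val_one, one_mul]
    have hy : conjMat g⁻¹ (k₁ : Matrix ι ι F) ∈ K := by
      refine (hg _).2 ?_
      have := conjMat_cancel_inv g (k₁ : Matrix ι ι F)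
      simp only [conjMat] at this ⊢
      rw [this]; exact k₁.2
    let y : K := ⟨_, hy⟩
    have hty : (τ y : Matrix ι ι F) = conjMat g⁻¹ (τ k₁ : Matrix ι ι F) := by
      refine IsAdj.unique hf (hτ y) ((hτ k₁).conj one_ne_zero fun u v => ?_)
      have := hgf (((g⁻¹ : GL ι F) : Matrix ι ι F) *ᵥ u) (((g⁻¹ : GL ι F) : Matrix ι ι F) *ᵥ v)
      simp only [Matrix.mulVec_mulVec, Units.mul_inv, Matrix.one_mulVec] at this
      rw [one_mul, this]
    have hy1 : y + τ y = 1 := by
      apply Subtype.ext
      rw [Subalgebra.coe_add, hty, Subalgebra.coe_one]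
      have := congrArg Subtype.val hsum
      rw [Subalgebra.coe_add, Subalgebra.coe_one] at this
      simp only [y, conjMat]
      rw [← add_mul, ← mul_add, this, mul_one, Units.mul_inv]
    have hQ : Q ((g : Matrix ι ι F) *ᵥ v) = f ((y : Matrix ι ι F) *ᵥ v) v := by
      simp only [Q]
      conv_lhs => arg 1; rw [← conjMat_cancel_inv g (k₁ : Matrix ι ι F), mulVec_conjMat]
      rw [hgf]
    rw [hQ]
    obtain ⟨a, b, hab⟩ := hspan (y - k₁)
    have hfix : τ (y - k₁) = y - k₁ := by
      have e1 : τ y = 1 - y := eq_sub_of_add_eq' hy1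
      have e2 : τ k₁ = 1 - k₁ := eq_sub_of_add_eq' hsum
      rw [map_sub, e1, e2, ← sub_eq_zero]
      have := hchar (k₁ - y)
      linear_combination this
    have hb : b = 0 := by
      by_contra hb
      apply hk
      rw [hab, map_add, hτc, hτsmul] at hfix
      exact smul_right_injective K hb (add_left_cancel hfix)
    have hya : (y : Matrix ι ι F) = (k₁ : Matrix ι ι F) + a • 1 := by
      have h1 : y = k₁ + algebraMap F K a := by
        rw [eq_comm, ← eq_sub_iff_add_eq', hab, hb, zero_smul, add_zero]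
      rw [h1, Subalgebra.coe_add, Subalgebra.coe_algebraMap, Algebra.algebraMap_eq_smul_one]
    rw [hya, Matrix.add_mulVec, Matrix.smul_mulVec, Matrix.one_mulVec, hB.add_left, hB.smul_left,
      hs.alternating, mul_zero, add_zero]

end CfsgLib.Aschbacher.Forms
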