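import Cfsg.Agent.Aschbacher.Proper
import Cfsg.Agent.Aschbacher.CentreField
import Cfsg.Agent.Aschbacher.FormsField

/-! The normaliser of a field subalgebra of composite degree is not maximal. -/

set_option autoImplicit false
set_option linter.unusedSectionVars false

namespace CfsgLib.Aschbacher.CompositeField

open Matrix Module Cfsg.Geo

variable {ι : Type} [Fintype ι] [DecidableEq ι] {F : Type*} [Field F] [Fintype F]

local notation "GLm" => Matrix.GeneralLinearGroup

lemma eval_injective {r : ℕ} {K : Subalgebra F (Matrix ι ι F)} (hK : IsFieldSubalgebra r K) {v : ι → F}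
    (hv : v ≠ 0) {k : Matrix ι ι F} (hk : k ∈ K) (h : k *ᵥ v = 0) : k = 0 := by
  by_contra hk0
  obtain ⟨y, hy, hky⟩ := hK.inv k hk hk0
  have : y * k = 1 := (hK.comm y hy k hk).trans hky
  have h' := congrArg (fun z => y *ᵥ z) h
  simp only [Matrix.mulVec_mulVec, this, Matrix.one_mulVec, Matrix.mulVec_zero] at h'
  exact hv h'

lemma finrank_orbit {r : ℕ} {K : Subalgebra F (Matrix ι ι F)} (hK : IsFieldSubalgebra r K) {v : ι → F}
    (hv : v ≠ 0) :
    finrank F (Submodule.map ((Matrix.mulVecBilin F F).flip v) (Subalgebra.toSubmodule K)) = r := by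
  rw [← LinearMap.range_domRestrict, LinearMap.finrank_range_of_inj]
  · exact hK.finrank_eq
  · rw [← LinearMap.ker_eq_bot, LinearMap.ker_eq_bot']
    intro k hk
    exact Subtype.ext (eval_injective hK hv k.2 hk)

/-- A nonzero square-zero matrix over the field `L` of small rank. -/
theorem exists_small_nilpotent {s : ℕ} {L : Subalgebra F (Matrix ι ι F)} (hL : IsFieldSubalgebra s L)
    (hs : s < Fintype.card ι) :
    ∃ N : Matrix ι ι F, N * N = 0 ∧ N ≠ 0 ∧ (∀ l ∈ L, l * N = N * l) ∧ N.rank ≤ s := by
  classical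
  have : Nonempty ι := Fintype.card_pos_iff.1 (by omega)
  letI : Field L := (Forms.isField_of_isFieldSubalgebra hL).toField
  letI hmod : Module L (ι → F) :=
    Module.compHom (ι → F) ((Matrix.toLinAlgEquiv' (R := F) (n := ι)).toAlgHom.comp L.val).toRingHom
  have hsmul : ∀ (l : L) (v : ι → F), l • v = (l : Matrix ι ι F) *ᵥ v := fun l v => rfl
  obtain ⟨u, hu⟩ : ∃ u : ι → F, u ≠ 0 := exists_ne 0
  obtain ⟨v, hv⟩ : ∃ v, v ∉ Submodule.span L ({u} : Set (ι → F)) := by
    by_contra hall
    push Not at hall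
    have hle : (⊤ : Submodule F (ι → F)) ≤
        Submodule.map ((Matrix.mulVecBilin F F).flip u) (Subalgebra.toSubmodule L) := by
      intro w _
      obtain ⟨l, rfl⟩ := Submodule.mem_span_singleton.1 (hall w)
      exact ⟨l, l.2, (hsmul l u).symm⟩
    have := Submodule.finrank_mono hle
    rw [finrank_top, finrank_fintype_fun_eq_card, finrank_orbit hL hu] at this
    omega
  obtain ⟨φ, hφv, hφu⟩ := Submodule.exists_le_ker_of_notMem hv
  have hφu' : φ u = 0 := hφu (Submodule.mem_span_singleton_self u)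
  let Nl : (ι → F) →ₗ[F] (ι → F) :=
    { toFun := fun x => φ x • u
      map_add' := fun x y => by
        show φ (x + y) • u = φ x • u + φ y • u
        rw [map_add]; exact add_smul (φ x) (φ y) u
      map_smul' := fun c x => by
        have hc : c • x = (algebraMap F L c) • x := by
          rw [hsmul, Subalgebra.coe_algebraMap, Matrix.algebraMap_eq_diagonal]
          funext i; simp [Matrix.mulVec_diagonal]
        rw [hc, map_smul, smul_eq_mul, mul_smul, hsmul, Subalgebra.coe_algebraMap,
          Matrix.algebraMap_eq_diagonal, RingHom.id_apply]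
        funext i; simp [Matrix.mulVec_diagonal] }
  have hN : ∀ x, LinearMap.toMatrix' Nl *ᵥ x = φ x • u := fun x => by
    rw [← Matrix.toLin'_apply, Matrix.toLin'_toMatrix']; rfl
  refine ⟨LinearMap.toMatrix' Nl, ?_, ?_, ?_, ?_⟩
  · refine Matrix.ext_of_mulVec_single fun i => ?_
    rw [← Matrix.mulVec_mulVec, hN, hN, map_smul, hφu', smul_zero, zero_smul, Matrix.zero_mulVec]
  · intro h0
    have h := hN v
    rw [h0, Matrix.zero_mulVec] at h
    rw [hsmul] at h
    exact hφv (Subtype.ext (eval_injective hL hu (φ v).2 h.symm))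
  · intro l hl
    refine Matrix.ext_of_mulVec_single fun i => ?_
    rw [← Matrix.mulVec_mulVec, ← Matrix.mulVec_mulVec, hN, hN]
    show (⟨l, hl⟩ : L) • (φ (Pi.single i 1) • u) = φ ((⟨l, hl⟩ : L) • Pi.single i 1) • u
    rw [map_smul, smul_smul, smul_eq_mul]
  · rw [Matrix.rank]
    refine (Submodule.finrank_mono ?_).trans (finrank_orbit hL hu).le
    rintro _ ⟨x, rfl⟩
    exact ⟨φ x, (φ x).2, ((hN x).trans (hsmul _ u)).symm⟩

theorem not_maximal {r : ℕ} (hr1 : 1 < r) (hrp : ¬ r.Prime) (hrn : r ∣ Fintype.card ι)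
    (hlt : r < Fintype.card ι) {K : Subalgebra F (Matrix ι ι F)} (hK : IsFieldSubalgebra r K) :
    ¬ IsCoatom (subalgebraNormalizer K) ∧
      ¬ IsMaximalIn (specialLinear ι F) (subalgebraNormalizer K ⊓ specialLinear ι F) := by
  classical
  have : Nonempty ι := Fintype.card_pos_iff.1 (by omega)
  obtain ⟨c, hc⟩ := hrn
  have hc2 : 2 ≤ c := by
    by_contra h
    have : c = 0 ∨ c = 1 := by omega
    rcases this with rfl | rfl <;> omega
  have h2r : 2 * r ≤ Fintype.card ι := by rw [hc, mul_comm 2 r]; exact Nat.mul_le_mul_left r hc2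
  have hbot : K ≠ ⊥ := fun h => by
    have := hK.finrank_eq
    rw [h, Subalgebra.finrank_bot] at this
    omega
  obtain ⟨s, hs, -, hsr, hL, hle⟩ := Centre.exists_prime_subfield (G := subalgebraNormalizer K) (Z := K)
    (fun g hg a ha => (hg a).1 ha) hK.comm hK.inv hbot
  rw [hK.finrank_eq] at hsr
  set L := Centre.powFixed K hK.comm s
  have hslt : s < r := lt_of_le_of_ne (Nat.le_of_dvd (by omega) hsr) fun h => hrp (h ▸ hs)
  obtain ⟨N, hN2, hN0, hNL, hNrank⟩ := exists_small_nilpotent hL (by omega)
  let T : GLm ι F := ⟨1 + N, 1 - N, by rw [mul_sub, mul_one, add_mul, one_mul, hN2, add_zero, add_sub_cancel_right],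
    by rw [sub_mul, one_mul, mul_add, mul_one, hN2, add_zero, add_sub_cancel_right]⟩
  have hTval : (T : Matrix ι ι F) = 1 + N := rfl
  have hTL : T ∈ subalgebraNormalizer L := by
    have hfix : ∀ l ∈ L, (T : Matrix ι ι F) * l * ((T⁻¹ : GLm ι F) : Matrix ι ι F) = l := fun l hl => by
      rw [show (T : Matrix ι ι F) * l = l * (T : Matrix ι ι F) by
        rw [hTval, add_mul, mul_add, one_mul, mul_one, hNL l hl], mul_assoc, ← Units.val_mul, mul_inv_cancel,
        Units.val_one, mul_one]
    intro k
    refine ⟨fun hk => by rw [hfix k hk]; exact hk, fun hk => ?_⟩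
    have h := hfix _ hk
    have e : k = (T : Matrix ι ι F) * k * ((T⁻¹ : GLm ι F) : Matrix ι ι F) := by
      have h' := congrArg (fun z => ((T⁻¹ : GLm ι F) : Matrix ι ι F) * z * (T : Matrix ι ι F)) h
      simp only [← mul_assoc, ← Units.val_mul, inv_mul_cancel, Units.val_one, one_mul] at h'
      simp only [mul_assoc, ← Units.val_mul, inv_mul_cancel, Units.val_one, mul_one] at h'
      simpa [mul_assoc] using h'.symm
    rw [e]; exact hk
  have hTSL : T ∈ specialLinear ι F := by
    obtain ⟨p, hp⟩ := CharP.exists F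
    have := Fact.mk (CharP.char_is_prime F p)
    refine MonoidHom.mem_ker.2 (Units.ext ?_)
    show (1 + N).det = 1
    have hpow : (1 + N) ^ p = 1 := by
      rw [add_pow_char_of_commute (p := p) (h := Commute.one_left N), one_pow]
      have : N ^ p = 0 := by
        rw [show p = 2 + (p - 2) by have := (CharP.char_is_prime F p).two_le; omega, pow_add, sq, hN2, zero_mul]
      rw [this, add_zero]
    have hd := congrArg Matrix.det hpow
    rw [Matrix.det_pow, Matrix.det_one] at hd
    have : ((1 + N).det - 1) ^ p = 0 := by rw [sub_pow_char, hd, one_pow, sub_self]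
    exact sub_eq_zero.1 (eq_zero_of_pow_eq_zero this)
  have hTK : T ∉ subalgebraNormalizer K := by
    intro hT
    -- T commutes with K
    have hcomm : ∀ k ∈ K, k * N = N * k := by
      intro k hk
      set x := N * k - k * N with hx
      by_contra hne
      have hx0 : x * ((T⁻¹ : GLm ι F) : Matrix ι ι F) ≠ 0 := fun h => hne (by
        have h' := congrArg (fun z => z * (T : Matrix ι ι F)) h
        simp only [mul_assoc, ← Units.val_mul, inv_mul_cancel, Units.val_one, mul_one, zero_mul] at h'
        exact (sub_eq_zero.1 h').symm)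
      have hxK : x * ((T⁻¹ : GLm ι F) : Matrix ι ι F) ∈ K := by
        have e : x * ((T⁻¹ : GLm ι F) : Matrix ι ι F)
            = (T : Matrix ι ι F) * k * ((T⁻¹ : GLm ι F) : Matrix ι ι F) - k := by
          have : k = k * (T : Matrix ι ι F) * ((T⁻¹ : GLm ι F) : Matrix ι ι F) := by
            rw [mul_assoc, ← Units.val_mul, mul_inv_cancel, Units.val_one, mul_one]
          conv_rhs => arg 2; rw [this]
          rw [hx, ← sub_mul, hTval, add_mul, mul_add, one_mul, mul_one]
          congr 1; abel
        rw [e]; exact sub_mem ((hT k).1 hk) hk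
      obtain ⟨y, -, hy⟩ := hK.inv _ hxK hx0
      have hrank : (x * ((T⁻¹ : GLm ι F) : Matrix ι ι F)).rank = Fintype.card ι :=
        Matrix.rank_of_isUnit _ (IsUnit.of_mul_eq_one _ hy)
      have h1 : (N * k).rank ≤ s := (Matrix.rank_mul_le_left _ _).trans hNrank
      have h2 : (-k * N).rank ≤ s := (Matrix.rank_mul_le_right _ _).trans hNrank
      have h3 : (x * ((T⁻¹ : GLm ι F) : Matrix ι ι F)).rank ≤ s + s := by
        refine (Matrix.rank_mul_le_left _ _).trans ?_
        rw [hx, sub_eq_add_neg, ← neg_mul]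
        exact (rank_add_le' _ _).trans (by omega)
      omega
    -- then its image is a space over K
    obtain ⟨i, hi⟩ : ∃ i, N *ᵥ Pi.single i 1 ≠ 0 := by
      by_contra h
      push Not at h
      exact hN0 (Matrix.ext_of_mulVec_single fun i => by rw [h i, Matrix.zero_mulVec])
    have hle' : Submodule.map ((Matrix.mulVecBilin F F).flip (N *ᵥ Pi.single i 1)) (Subalgebra.toSubmodule K)
        ≤ LinearMap.range N.mulVecLin := by
      rintro _ ⟨k, hk, rfl⟩
      refine ⟨k *ᵥ Pi.single i 1, ?_⟩
      show N *ᵥ (k *ᵥ _) = k *ᵥ (N *ᵥ _)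
      rw [Matrix.mulVec_mulVec, Matrix.mulVec_mulVec, hcomm k hk]
    have := Submodule.finrank_mono hle'
    rw [finrank_orbit hK hi] at this
    change r ≤ N.rank at this
    omega
  have hSL := CfsgLib.Aschbacher.not_le_subalgebraNormalizer (by omega) hL hs.two_le
  refine ⟨fun h => ?_, fun h => ?_⟩
  · rcases h.le_iff.1 hle with e | e
    · exact hSL (by rw [e]; exact le_top)
    · exact hTK (e ▸ hTL)
  · have e := CfsgLib.Aschbacher.eq_inf_of_le h (inf_le_left.trans hle) hSL
    have hmem : T ∈ subalgebraNormalizer K ⊓ specialLinear ι F := by rw [e]; exact ⟨hTL, hTSL⟩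
    exact hTK hmem.1

end CfsgLib.Aschbacher.CompositeField
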